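import Cfsg.Agent.FGS.F2.Defs
import Cfsg.Agent.INV.BaerSuzuki

/-! Basic lemmas on the minimal configuration. -/

set_option autoImplicit false
set_option linter.unusedSectionVars false

namespace CL.F2
open Subgroup Cfsg CL.MSS CL.PComp CL.Comp
open scoped commutatorElement

variable {G : Type*} [Group G] [Finite G] {p : ℕ} [hp : Fact p.Prime] {x : G}

theorem Mn.rep (h : Mn p x) {U : Subgroup G} (hU : (Nat.card U).Coprime p)
    (hn : x ∈ normalizer (U : Set G)) {a : G} (ha : a ∈ U) :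
    ∃ b ∈ U, b ∈ closure ({x, a * x * a⁻¹} : Set G) ∧ b * x * b⁻¹ = a * x * a⁻¹ := by
  set J := closure ({x, a * x * a⁻¹} : Set G) with hJ
  have hW : zpowers x ≤ normalizer (U : Set G) := zpowers_le.2 hn
  have hxJ : x ∈ J := subset_closure (by simp)
  have haJ : a * x * a⁻¹ ∈ J := subset_closure (by simp)
  have hWJ : zpowers x ≤ J := zpowers_le.2 hxJ
  have hxs : x ∈ zpowers x ⊔ U := mem_sup_left (mem_zpowers x)
  have hJle : J ≤ zpowers x ⊔ U := (closure_le _).2 (by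
    rintro _ (rfl | rfl)
    · exact hxs
    · exact mul_mem (mul_mem (mem_sup_right ha) hxs) (inv_mem (mem_sup_right ha)))
  have e1 : J = zpowers x ⊔ (J ⊓ U) := by
    rw [← inf_sup_of_normalizes hWJ hW, inf_eq_left.2 hJle]
  have hn' : zpowers x ≤ normalizer ((J ⊓ U : Subgroup G) : Set G) :=
    le_normalizer_inf (hWJ.trans le_normalizer) hW
  have h1 : SylIn p (zpowers x) J := ⟨hWJ, h.pg, fun Q hQ h2 h3 => by
    rw [← inf_eq_left.2 (h3.trans hJle), inf_sup_of_normalizes h2 hW,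
      inf_eq_bot_of_isPGroup_of_coprime hQ hU, sup_bot_eq]⟩
  obtain ⟨j, hj, h2⟩ := h1.exists_le_conj (R := zpowers (a * x * a⁻¹))
    (h.conj (isConj_cj x a)).pg (zpowers_le.2 haJ)
  rw [e1, sup_comm] at hj
  obtain ⟨b, hb, w, hw, rfl⟩ := (mem_sup_of_normalizes_left hn').1 hj
  rw [cj_mul, cj_eq_of_mem hw] at h2
  have h3 : b⁻¹ * (a * x * a⁻¹) * b ∈ zpowers x := mem_cj.1 (h2 (mem_zpowers _))
  have h4 : b⁻¹ * (a * x * a⁻¹) * b * x⁻¹ ∈ zpowers x ⊓ U :=
    mem_inf.2 ⟨mul_mem h3 (inv_mem (mem_zpowers x)), by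
      have e : b⁻¹ * (a * x * a⁻¹) * b * x⁻¹ = b⁻¹ * a * (x * (a⁻¹ * b) * x⁻¹) := by group
      rw [e]
      exact U.mul_mem (U.mul_mem (U.inv_mem hb.2) ha)
        (conj_mem_of_normalizes hW (mem_zpowers x) (mul_mem (inv_mem ha) hb.2))⟩
  rw [inf_eq_bot_of_isPGroup_of_coprime h.pg hU, mem_bot, mul_inv_eq_one] at h4
  exact ⟨b, hb.2, hb.1, by
    calc b * x * b⁻¹ = b * (b⁻¹ * (a * x * a⁻¹) * b) * b⁻¹ := by rw [h4]
      _ = _ := by group⟩

theorem Mn.trick (h : Mn p x) {U : Subgroup G} (hU : (Nat.card U).Coprime p)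
    (hn : x ∈ normalizer (U : Set G)) {a : G} (ha : a ∈ U) {c : G} (hc : Commute c x) :
    ∃ H : Subgroup G, H ≠ ⊤ ∧ x ∈ H ∧ c ∈ H ∧ a * x * a⁻¹ ∈ H := by
  obtain ⟨b, -, hb, e⟩ := h.rep hU hn ha
  have h1 : x ∈ closure ({x, b * c} : Set G) := subset_closure (by simp)
  have h2 : b * c ∈ closure ({x, b * c} : Set G) := subset_closure (by simp)
  have h3 : a * x * a⁻¹ ∈ closure ({x, b * c} : Set G) := by
    have e2 : a * x * a⁻¹ = b * c * x * (b * c)⁻¹ := by
      rw [← e, mul_assoc b c x, hc.eq]; group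
    rw [e2]
    exact mul_mem (mul_mem h2 h1) (inv_mem h2)
  have h4 : b ∈ closure ({x, b * c} : Set G) := (closure_le _).2 (by
    rintro _ (rfl | rfl)
    exacts [h1, h3]) hb
  exact ⟨_, h.two x (b * c) (IsConj.refl x), h1, (Subgroup.mul_mem_cancel_left _ h4).1 h2, h3⟩

theorem Mn.dec (h : Mn p x) {d : G} (hd : IsConj x d) :
    ∃ H : Subgroup G, H ≠ ⊤ ∧ x ∈ H ∧ d ∈ H ∧ ∃ T : Subgroup G, IsPGroup p T ∧ x ∈ T ∧
      ∃ a ∈ opOf p (fittingOf H), a * d * a⁻¹ ∈ T := by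
  set H := closure ({x, d} : Set G)
  have hH : H ≠ ⊤ := h.two x d (IsConj.refl x)
  have hx : x ∈ H := subset_closure (by simp)
  have hdH : d ∈ H := subset_closure (by simp)
  obtain ⟨T, hT, hxT⟩ := exists_sylIn_ge h.pg (zpowers_le.2 (self_mem_Cl hx))
  have hTA : T ≤ normalizer (opOf p (fittingOf H) : Set G) :=
    (hT.le.trans (Cl_le x H)).trans (norm_opF H)
  have h1 : Cl x H ≤ T ⊔ opOf p (fittingOf H) := by
    rw [← subgroupOf_eq_top]
    refine eq_top_of_forall_sylow_le fun q hq => ?_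
    by_cases e : q = p
    · subst e
      exact ⟨hT.toSylow, comap_mono le_sup_left⟩
    · obtain ⟨P⟩ : Nonempty (Sylow q (Cl x H)) := inferInstance
      exact ⟨P, map_le_iff_le_comap.1 (((h.good H hH q hq.out e _ (map_subtype_le _)
        (P.isPGroup'.map _)).trans (core_le_opF hq.out e H)).trans le_sup_right)⟩
  obtain ⟨l, hl, h2⟩ := hT.exists_conj_le (h.conj hd).pg (zpowers_le.2 (mem_Cl hd hdH))
  obtain ⟨t, ht, a, ha, rfl⟩ := (mem_sup_of_normalizes_right hTA).1 (h1 hl)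
  refine ⟨H, hH, hx, hdH, T, hT.pgroup, hxT (mem_zpowers x), a, ha, ?_⟩
  have h3 := mul_mem (mul_mem (inv_mem ht) (h2 (conj_mem_cj (mem_zpowers d)))) ht
  have e : t⁻¹ * (t * a * d * (t * a)⁻¹) * t = a * d * a⁻¹ := by group
  rwa [e] at h3

theorem Mn.cb (h : Mn p x) {U : Subgroup G} (hU : (Nat.card U).Coprime p)
    (hn : x ∈ normalizer (U : Set G)) {a : G} (ha : a ∈ U) {q : ℕ} (hq : q.Prime) (hqp : q ≠ p)
    {s : G} (hs : s ∈ closure ({x, a * x * a⁻¹} : Set G)) (hsq : IsPGroup q (zpowers s))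
    (hc : Commute s x) : s ∈ pCoreOf q (centralizer ({x} : Set G)) := by
  have := Fact.mk hq
  have hsC : s ∈ centralizer ({x} : Set G) := mem_centralizer_singleton_iff.2 hc.eq
  obtain ⟨N, hN, hNq, hsN⟩ := CL.Inv.baer_suzuki_exists_normal (p := q)
    (x := (⟨s, hsC⟩ : centralizer ({x} : Set G))) fun c => by
      obtain ⟨H, hH, hx, hcH, haH⟩ := h.trick hU hn ha
        (c := (c : G)) (mem_centralizer_singleton_iff.1 c.2)
      have h1 : s ∈ pCoreOf q H := h.good H hH q hq hqp _ (zpowers_le.2 ((closure_le _).2 (by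
        rintro _ (rfl | rfl)
        exacts [self_mem_Cl hx, mem_Cl (isConj_cj x a) haH]) hs)) hsq (mem_zpowers s)
      refine (isPGroup_subgroupOf (pCoreOf_isPGroup q H) _).to_le ((closure_le _).2 ?_)
      rintro _ (rfl | rfl)
      · exact h1
      · exact conj_mem_of_normalizes (le_normalizer_pCoreOf q H) hcH h1
  exact (mem_pCoreOf ⟨s, hsC⟩).2 (le_pCore hNq hsN)

theorem Mn.cb' (h : Mn p x) {U : Subgroup G} (hU : (Nat.card U).Coprime p)
    (hn : x ∈ normalizer (U : Set G)) {a : G} (ha : a ∈ U)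
    {s : G} (hs : s ∈ closure ({x, a * x * a⁻¹} : Set G)) (hsp : ¬ p ∣ orderOf s)
    (hc : Commute s x) : s ∈ opOf p (centralizer ({x} : Set G)) := by
  refine le_of_primary (U := zpowers s) (p := p)
    (by rw [Nat.card_zpowers]; exact coprime_card_iff_not_dvd.2 hsp)
    (fun q hq hqp Q hQ hQq b hb => ?_) (mem_zpowers s)
  refine le_opOf (pCoreOf_le q _) (le_normalizer_pCoreOf q _)
    (cop_of_ne hq hqp (pCoreOf_isPGroup q _))
    (h.cb hU hn ha hq hqp (zpowers_le.2 hs (hQ hb)) (hQq.to_le (zpowers_le.2 hb)) ?_)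
  obtain ⟨i, rfl⟩ := hQ hb
  exact hc.zpow_left i

theorem Mn.corefree (h : Mn p x) {H A : Subgroup G} (hH : H ≠ ⊤) (hx : x ∈ H) (hA : A ≠ ⊥)
    (hle : A ≤ H) : normalizer (A : Set G) ≠ ⊤ := by
  intro ht
  have hAn : A.Normal := normalizer_eq_top_iff.1 ht
  have h0 : ∀ q : ℕ, q.Prime → ∀ R : Subgroup G, IsPGroup q R → R ≤ A →
      A ≤ normalizer (R : Set G) → R = ⊥ := fun q hq R hR h1 h2 => by
    by_contra h3
    refine h.loc q hq _ (pCoreOf_isPGroup q A) (fun e => h3 (eq_bot_iff.2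
      ((le_pCoreOf h1 h2 hR).trans e.le))) (eq_top_iff.2 ?_)
    exact ht.ge.trans (normalizer_le_normalizer_pCoreOf q A)
  have h1 : A ⊓ Cl x H = ⊥ := by
    refine h0 p hp.out _ ?_ inf_le_left (le_normalizer_inf le_normalizer (hle.trans (norm_Cl x H)))
    obtain ⟨T, hT⟩ := exists_sylIn p (A ⊓ Cl x H)
    refine hT.pgroup.to_le ?_
    rw [← subgroupOf_eq_top]
    refine eq_top_of_forall_sylow_le fun q hq => ?_
    by_cases e : q = p
    · subst e
      exact ⟨hT.toSylow, le_rfl⟩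
    · obtain ⟨P⟩ : Nonempty (Sylow q (A ⊓ Cl x H : Subgroup G)) := inferInstance
      refine ⟨P, map_le_iff_le_comap.1 (le_trans ?_ bot_le)⟩
      rw [← h0 q hq.out (A ⊓ pCoreOf q H) ((pCoreOf_isPGroup q H).to_le inf_le_right) inf_le_left
        (le_normalizer_inf le_normalizer (hle.trans (le_normalizer_pCoreOf q H)))]
      exact le_inf ((map_subtype_le _).trans inf_le_left) (h.good H hH q hq.out e _
        ((map_subtype_le _).trans inf_le_right) (P.isPGroup'.map _))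
  have h2 : zpowers x ≤ centralizer (A : Set G) := by
    rw [← commutator_eq_bot_iff_le_centralizer, commutator_comm, eq_bot_iff, ← h1]
    exact le_inf (commutator_le_left _ _) (comm_le_Cl hx hle)
  have h3 : (⊤ : Subgroup G) ≤ centralizer (A : Set G) := by
    rw [← h.gen]
    exact normalClosure_le_normal (Set.singleton_subset_iff.2 (h2 (mem_zpowers x)))
  obtain ⟨⟨e, he⟩, he1⟩ := ne_bot_iff_exists_ne_one.1 hA
  exact h.cen_ne_top (e := e) (fun e1 => he1 (Subtype.ext e1)) (eq_top_iff.2 fun g hg =>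
    mem_centralizer_singleton_iff.2 (h3 hg e he).symm)

theorem Mn.comm_of_norm (h : Mn p x) {d : G} (hd : IsPGroup p (zpowers d))
    (hn : d ∈ normalizer (zpowers x : Set G)) : Commute x d := by
  have h1 := inf_centralizer_ne_bot hd h.pg (zpowers_le.2 hn) (zpowers_ne_bot.2 h.ne_one)
  have h2 : Nat.card (zpowers x ⊓ centralizer (zpowers d : Set G) : Subgroup G) ∣ p := by
    rw [← h.ord, ← Nat.card_zpowers x]
    exact card_dvd_of_le inf_le_left
  rcases (Nat.dvd_prime hp.out).1 h2 with e | e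
  · exact absurd (card_eq_one.1 e) h1
  · have h3 := eq_of_le_of_card_ge (inf_le_left : zpowers x ⊓ centralizer (zpowers d : Set G) ≤ _)
      (by rw [e, Nat.card_zpowers, h.ord])
    exact ((h3.ge (mem_zpowers x)).2 d (mem_zpowers d)).symm

theorem Mn.wc (h : Mn p x) (hw : ∀ d : G, IsConj x d → Commute x d → d ∈ zpowers x)
    {T : Subgroup G} (hT : IsPGroup p T) (hx : x ∈ T) {d : G} (hd : IsConj x d) (hdT : d ∈ T) :
    d ∈ zpowers x := by
  have h1 : T ≤ normalizer (zpowers x : Set G) := by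
    by_contra hc
    obtain ⟨t, ht, htn, h2⟩ := CL.Inv.exists_mem_normalizer_of_lt_pGroup hT
      (M := T ⊓ normalizer (zpowers x : Set G)) (inf_lt_left.2 hc)
    refine h2 ⟨ht, mem_normalizer_of_cj_le ?_⟩
    rw [cj_zpowers, zpowers_le]
    exact hw _ (isConj_cj x t) (h.comm_of_norm (h.conj (isConj_cj x t)).pg
      ((mem_normalizer_iff.1 htn x).1 ⟨hx, le_normalizer (mem_zpowers x)⟩).2)
  exact hw d hd (h.comm_of_norm (h.conj hd).pg (h1 hdT))

end CL.F2
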