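import Cfsg.Agent.FGS.F2.Bas
import Cfsg.Agent.FGS.XC.PS2
import Cfsg.Agent.SOLV.OddOrderCor

/-! The weakly closed case reduces to a coprime automorphism. -/

set_option autoImplicit false
set_option linter.unusedSectionVars false

namespace CL.F2
open Subgroup Cfsg CL.MSS CL.PComp CL.Comp
open scoped commutatorElement

variable {G : Type*} [Group G] [Finite G] {p : ℕ} [hp : Fact p.Prime] {x : G}

theorem Mn.core_bot (h : Mn p x) (q : ℕ) (hq : q.Prime) {N : Subgroup G} [N.Normal] :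
    pCoreOf q N = ⊥ := by
  by_contra h0
  exact h.loc q hq _ (pCoreOf_isPGroup q N) h0 (eq_top_iff.2
    ((XC.le_norm_normal ⊤ N).trans (normalizer_le_normalizer_pCoreOf q N)))

theorem Mn.solv_bot (h : Mn p x) {N : Subgroup G} [N.Normal] (hs : Group.IsSolvable N) :
    N = ⊥ := by
  by_contra h0
  refine fittingOf_ne_bot hs h0 ?_
  rw [fittingOf_def, map_eq_bot_iff_of_injective _ N.subtype_injective, fittingSubgroup_eq_bot_iff]
  exact fun q hq => (map_eq_bot_iff_of_injective _ N.subtype_injective).1 (h.core_bot q hq)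

theorem Mn.zpowers_eq (h : Mn p x) {v : G} (hv : v ∈ zpowers x) (h1 : v ≠ 1) :
    zpowers v = zpowers x := by
  refine eq_of_le_of_card_ge (zpowers_le.2 hv) ?_
  have h2 : Nat.card (zpowers v) ∣ p := by
    rw [← h.ord, ← Nat.card_zpowers x]
    exact card_dvd_of_le (zpowers_le.2 hv)
  rcases (Nat.dvd_prime hp.out).1 h2 with e | e
  · exact absurd (zpowers_eq_bot.1 (card_eq_one.1 e)) h1
  · rw [e, Nat.card_zpowers, h.ord]

theorem Mn.cen_eq (h : Mn p x) {v : G} (hv : v ∈ zpowers x) (h1 : v ≠ 1) :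
    centralizer ({v} : Set G) = centralizer ({x} : Set G) := by
  rw [← centralizer_closure, ← zpowers_eq_closure, h.zpowers_eq hv h1, zpowers_eq_closure,
    centralizer_closure]

theorem Mn.hw (h : Mn p x) : XC.Hw p (zpowers x) := ⟨h.pg, by
  rintro _ ⟨i, rfl⟩ _ ⟨j, rfl⟩
  exact (Commute.zpow_zpow_self x i j).eq⟩

theorem Mn.fb (h : Mn p x) (hw : ∀ d : G, IsConj x d → Commute x d → d ∈ zpowers x)
    {M : Ideal AlgInt} (hM : IsPModular p M) : XC.FB p M (zpowers x) := by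
  intro g
  obtain ⟨H, -, hx, hd, T, hT, hxT, a, ha, haT⟩ := h.dec (isConj_cj x g)
  have h1 : a * (g * x * g⁻¹) * a⁻¹ ∈ zpowers x :=
    h.wc hw hT hxT ((isConj_cj x g).trans (isConj_cj _ a)) haT
  have h2 : a * (g * x * g⁻¹) * a⁻¹ ≠ 1 :=
    (h.conj ((isConj_cj x g).trans (isConj_cj _ a))).ne_one
  have h3 : g •ᶜ zpowers x = a⁻¹ •ᶜ zpowers x := by
    rw [← cj_eq_iff, ← cj_mul, cj_zpowers, ← h.zpowers_eq h1 h2]
    congr 1
    group
  have hxn : x ∈ normalizer (opOf p (fittingOf H) : Set G) := norm_opF H hx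
  obtain ⟨n, hn, hg⟩ := h.hw.lemA (g := g) (opOf_coprime p (fittingOf H))
    ((sup_le (zpowers_le.2 hx) (by rw [cj_zpowers]; exact zpowers_le.2 hd)).trans (norm_opF H))
    (h3 ▸ cj_le_of_mem le_sup_left (inv_mem (mem_sup_right ha)))
  refine ⟨n, hn, fun u hu y hy => ?_⟩
  obtain ⟨s, t, e, hcm, hso, hsX⟩ := hg u hu y hy
  have hv : u * (n * y * n⁻¹) ∈ zpowers x := mul_mem hu ((mem_normalizer_iff.1 hn y).1 hy)
  refine ⟨fun h4 χ hχ => ?_, fun h4 => by rwa [e, h4, one_mul, CL.Blk.orderOf_conj']⟩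
  rw [e, χ.2.isClassFunction]
  refine Cfsg.Agent.S0942.result p M hM _ (h.hw.ord hv) s ?_ χ hχ
  rw [centralizerPPrimeCore_eq, h.cen_eq hv h4]
  refine h.cb' (opOf_coprime p _) hxn (inv_mem ha) ?_ hso ?_
  · rw [h3, cj_zpowers] at hsX
    exact sup_le (zpowers_le.2 (subset_closure (by simp))) (zpowers_le.2 (subset_closure (by simp)))
      hsX
  · have := mem_centralizer_singleton_iff.2 hcm.eq.symm
    rw [h.cen_eq hv h4] at this
    exact mem_centralizer_singleton_iff.1 this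

theorem Mn.caseA1 (h : Mn p x) (hw : ∀ d : G, IsConj x d → Commute x d → d ∈ zpowers x) :
    p ≠ 2 ∧ ∀ g : G, ⁅x, g⁆ ∈ pPrimeCore p G := by
  have hp2 : p ≠ 2 := by
    rintro rfl
    have h0 : pPrimeCore 2 G = ⊥ := h.solv_bot (CL.isSolvable_of_odd _
      (Nat.coprime_two_right.1 (pPrimeCore_coprime 2)))
    have h1 : x ∈ center G := by
      refine CL.BS.zstar_center ⟨h.ord, fun g hg => ?_⟩ h0
      obtain ⟨i, hi⟩ := hw _ (isConj_cj x g) hg
      have h2 : g * x * g⁻¹ ≠ 1 := (h.conj (isConj_cj x g)).ne_one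
      have h3 : x ^ (2 : ℤ) = 1 := by
        have := pow_orderOf_eq_one x
        rw [h.ord] at this
        exact_mod_cast this
      rw [← hi] at h2 ⊢
      rcases Int.even_or_odd' i with ⟨k, rfl | rfl⟩
      · exact absurd (by simp only [zpow_mul, h3, one_zpow]) h2
      · simp only [zpow_add, zpow_mul, h3, one_zpow, one_mul, zpow_one]
    exact h.cen_ne_top h.ne_one (eq_top_iff.2 fun g _ =>
      mem_centralizer_singleton_iff.2 (mem_center_iff.1 h1 g))
  refine ⟨hp2, fun g => ?_⟩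
  obtain ⟨M, hM⟩ := CL.Glb.exists_isPModular hp.out
  obtain ⟨P, hP⟩ := h.pg.exists_le_sylow
  refine h.hw.comm_mem hp2 hM ?_ (h.fb hw hM) P (fun t ht => mem_normalizer_of_cj_le ?_)
    (mem_zpowers x) g
  · rw [eq_top_iff, ← h.gen]
    exact normalClosure_mono (by simp)
  · rw [cj_zpowers, zpowers_le]
    exact h.wc hw P.isPGroup' (hP (mem_zpowers x)) (isConj_cj x t)
      (mul_mem (mul_mem ht (hP (mem_zpowers x))) (inv_mem ht))

end CL.F2
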