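import Cfsg.Agent.FGS.F2.Defs

/-! A transitivity lemma for families of `q`-subgroups. -/

set_option autoImplicit false
set_option linter.unusedSectionVars false

namespace CL.F2
open Subgroup Cfsg CL.MSS CL.PComp CL.Comp
open scoped commutatorElement

variable {G : Type*} [Group G] [Finite G] {p : ℕ} [hp : Fact p.Prime] {x : G}

theorem exists_max (F : Subgroup G → Prop) {R : Subgroup G} (h : F R) :
    ∃ R', R ≤ R' ∧ Maximal F R' := Finite.exists_le_maximal h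

/-- Downward induction on `|R₁ ⊓ R₂|` (for all maximal `R₁, R₂`). If `R₁ ≠ R₂`, `I = R₁ ⊓ R₂ < R_i`,
`I < R_i ⊓ N(I)`; enlarge `R₃` to a maximal member; `R₃ ⊓ R₂ > I` and `R₁ ⊓ c⁻¹ R₃ > I`. -/
theorem trans {q : ℕ} (hq : q.Prime) (F : Subgroup G → Prop) (Γ : Subgroup G)
    (hF : ∀ R, F R → IsPGroup q R) (hΓ : ∀ R, F R → ∀ c ∈ Γ, F (c •ᶜ R))
    (loc : ∀ R₁ R₂, F R₁ → F R₂ → R₁ ⊓ R₂ ≠ ⊥ → ∃ c ∈ Γ, ∃ R₃, F R₃ ∧
      c •ᶜ (R₁ ⊓ normalizer ((R₁ ⊓ R₂ : Subgroup G) : Set G)) ≤ R₃ ∧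
      R₂ ⊓ normalizer ((R₁ ⊓ R₂ : Subgroup G) : Set G) ≤ R₃)
    {R₁ R₂ : Subgroup G} (m₁ : Maximal F R₁) (m₂ : Maximal F R₂) (h : R₁ ⊓ R₂ ≠ ⊥) :
    ∃ c ∈ Γ, c •ᶜ R₁ = R₂ := by
  have := Fact.mk hq
  induction hI : R₁ ⊓ R₂ using WellFoundedGT.induction generalizing R₁ R₂ with
  | _ I ih =>
  subst hI
  by_cases e : R₁ = R₂
  · exact ⟨1, Γ.one_mem, by rw [cj_one, e]⟩
  have l1 : R₁ ⊓ R₂ < R₁ := lt_of_le_of_ne inf_le_left fun e' =>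
    e (le_antisymm (inf_eq_left.1 e') (m₁.2 m₂.1 (inf_eq_left.1 e')))
  have l2 : R₁ ⊓ R₂ < R₂ := lt_of_le_of_ne inf_le_right fun e' =>
    e (le_antisymm (m₂.2 m₁.1 (inf_eq_right.1 e')) (inf_eq_right.1 e'))
  obtain ⟨c, hc, R₃, h3, a1, a2⟩ := loc R₁ R₂ m₁.1 m₂.1 h
  obtain ⟨R₄, h4, m₄⟩ := exists_max F h3
  have m₅ : Maximal F (c⁻¹ •ᶜ R₄) := ⟨hΓ _ m₄.1 _ (Γ.inv_mem hc), fun R hR hle => by
    have := m₄.2 (hΓ R hR c hc) (by rw [← cj_inv_cj c R₄]; exact cj_mono c hle)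
    exact cj_le_iff.1 this⟩
  have b2 : R₁ ⊓ R₂ < R₄ ⊓ R₂ := (lt_inf_normalizer_of_lt (hF _ m₂.1) l2).trans_le
    (le_inf (a2.trans h4) inf_le_left)
  have b1 : R₁ ⊓ R₂ < R₁ ⊓ c⁻¹ •ᶜ R₄ := (lt_inf_normalizer_of_lt (hF _ m₁.1) l1).trans_le
    (le_inf inf_le_left (cj_le_iff.1 (a1.trans h4)))
  obtain ⟨d, hd, e2⟩ := ih _ b2 m₄ m₂ (ne_bot_of_gt b2) rfl
  obtain ⟨k, hk, e1⟩ := ih _ b1 m₁ m₅ (ne_bot_of_gt b1) rfl
  exact ⟨d * (c * k), Γ.mul_mem hd (Γ.mul_mem hc hk), by rw [cj_mul, cj_mul, e1, cj_inv_cj, e2]⟩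

/-- A nilpotent group is generated by `A ⊓ H` and its derived group only if `A ≤ H`. If the
subgroups `P i` generate `A = [A, W]` and `[P i, W] ≤ H`, then `[A, W] ≤ (A ⊓ H) ⊔ [A, A]`. -/
theorem le_of_gen {A W H : Subgroup G} (hA : Group.IsNilpotent A) (hW : W ≤ normalizer (A : Set G))
    (hAW : ⁅A, W⁆ = A)
    (gen : ∀ K : Subgroup G, (∀ a ∈ A, ⁅zpowers a, W⁆ ≤ H → a ∈ K) → A ≤ K) : A ≤ H := by
  by_contra hn
  obtain ⟨U, hU, m⟩ := exists_max (fun U => U < A) (R := A ⊓ H)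
    (lt_of_le_of_ne inf_le_left fun e => hn (inf_eq_left.1 e))
  have l := lt_inf_normalizer_of_isNilpotent hA m.1
  have nU : A ≤ normalizer (U : Set G) := by
    by_contra e
    exact not_le_of_gt l (m.2 (lt_of_le_of_ne inf_le_left fun e' => e (inf_eq_left.1 e')) l.le)
  have cj : ∀ a ∈ A, ∀ u ∈ U, a * u * a⁻¹ ∈ U := fun a ha u hu =>
    (mem_normalizer_iff.1 (nU ha) u).1 hu
  let K : Subgroup G :=
    { carrier := {a | a ∈ A ∧ ∀ w ∈ W, ⁅a, w⁆ ∈ U}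
      one_mem' := ⟨A.one_mem, fun w _ => by simp⟩
      mul_mem' := fun {a b} ha hb => ⟨A.mul_mem ha.1 hb.1, fun w hw => by
        rw [show ⁅a * b, w⁆ = a * ⁅b, w⁆ * a⁻¹ * ⁅a, w⁆ by simp only [commutatorElement_def]; group]
        exact U.mul_mem (cj a ha.1 _ (hb.2 w hw)) (ha.2 w hw)⟩
      inv_mem' := fun {a} ha => ⟨A.inv_mem ha.1, fun w hw => by
        rw [show ⁅a⁻¹, w⁆ = a⁻¹ * ⁅a, w⁆⁻¹ * a⁻¹⁻¹ by simp only [commutatorElement_def]; group]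
        exact cj _ (A.inv_mem ha.1) _ (U.inv_mem (ha.2 w hw))⟩ }
  have hK := gen K fun a ha h => ⟨ha, fun w hw => hU
    ⟨commutator_le_left_of_normalizes hW (commutator_mem_commutator ha hw),
      h (commutator_mem_commutator (mem_zpowers a) hw)⟩⟩
  refine not_le_of_gt m.1 ?_
  rw [← hAW]
  exact commutator_le.2 fun a ha w hw => (hK ha).2 w hw

end CL.F2
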