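import Cfsg.Agent.FGS.F2.Bas
import Cfsg.Agent.FGS.F2.TI
import Cfsg.Agent.FGS.FlavFix

/-! The coprime case: `K_q(x)` is a `q`-group. -/

set_option autoImplicit false
set_option linter.unusedSectionVars false

namespace CL.F2
open Subgroup Cfsg CL.MSS CL.PComp CL.Comp
open scoped commutatorElement

variable {G : Type*} [Group G] [Finite G] {p : ℕ} [hp : Fact p.Prime] {x : G}

/-- `CL.Flav.main` and `cb` (`cm ⟨x⟩ a ≤ ⟨x, a x a⁻¹⟩`). -/
theorem Mn.fp (h : Mn p x) (hp2 : p ≠ 2) {q : ℕ} (hq : q.Prime) (hqp : q ≠ p) {Q : Subgroup G}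
    (hQ : IsPGroup q Q) (hn : x ∈ normalizer (Q : Set G)) :
    ⁅Q, zpowers x⁆ ⊓ centralizer ({x} : Set G) ≤ pCoreOf q (centralizer ({x} : Set G)) := by
  have := Fact.mk hq
  have e : centralizer ((zpowers x : Subgroup G) : Set G) = centralizer ({x} : Set G) := by
    rw [zpowers_eq_closure, centralizer_closure]
  have m := CL.Flav.main hp.out hp2 _ G Q (zpowers x) rfl (zpowers_le.2 hn)
    (by rw [Nat.card_zpowers, h.ord]) (cop_of_ne hq hqp hQ) (isSolvable_of_isPGroup hQ)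
  rw [e] at m
  refine m.trans (CL.Flav.DD_le fun a ha s hs => ?_)
  have h1 : s ∈ Q := commutator_le_left_of_normalizes (zpowers_le.2 hn) (CL.Flav.cm_le_comm ha hs.1)
  refine h.cb (cop_of_ne hq hqp hQ) hn ha hq hqp (CL.Flav.cm_le.2 ?_ hs.1) (hQ.to_le (zpowers_le.2 h1))
    (mem_centralizer_singleton_iff.1 (e ▸ hs.2))
  rintro _ ⟨n, rfl⟩
  rw [commutatorElement_def, ← conj_zpow]
  exact mul_mem (zpow_mem (subset_closure (by simp)) n) (inv_mem (zpow_mem (subset_closure (by simp)) n))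

namespace A2

/-- The family of invariant `q`-subgroups whose fixed points lie in `O_q(C(x))`. -/
def Fm (q : ℕ) (x : G) (R : Subgroup G) : Prop :=
  IsPGroup q R ∧ x ∈ normalizer (R : Set G) ∧
    R ⊓ centralizer ({x} : Set G) ≤ pCoreOf q (centralizer ({x} : Set G))

variable {q : ℕ} {c : G} {H Q R : Subgroup G}

theorem cjx (hc : c ∈ centralizer ({x} : Set G)) : c * x * c⁻¹ = x := by
  rw [mem_centralizer_singleton_iff.1 hc, mul_inv_cancel_right]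

theorem cjz (hc : c ∈ centralizer ({x} : Set G)) : c •ᶜ zpowers x = zpowers x := by
  rw [cj_zpowers, cjx hc]

theorem Fm.cj (k : Fm q x R) (hc : c ∈ centralizer ({x} : Set G)) : Fm q x (c •ᶜ R) := by
  refine ⟨isPGroup_cj c k.1, ?_, ?_⟩
  · rw [← cj_normalizer, ← cjx hc]
    exact conj_mem_cj k.2.1
  · have := cj_mono c k.2.2
    rwa [cj_inf, cj_eq_of_mem hc, cj_eq_of_mem_normalizer (le_normalizer_pCoreOf q _ hc)] at this

theorem max_cj (k : Maximal (Fm q x) R) (hc : c ∈ centralizer ({x} : Set G)) :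
    Maximal (Fm q x) (c •ᶜ R) :=
  ⟨k.1.cj hc, fun _ h1 h2 => le_cj_iff.2 (k.2 (h1.cj (inv_mem hc)) (cj_le_iff.1 h2))⟩

theorem fm_comm (h : Mn p x) (hp2 : p ≠ 2) (hq : q.Prime) (hqp : q ≠ p) (hQ : IsPGroup q Q)
    (hn : x ∈ normalizer (Q : Set G)) : Fm q x ⁅Q, zpowers x⁆ :=
  ⟨hQ.to_le (commutator_le_left_of_normalizes (zpowers_le.2 hn)), norm_comm hn, h.fp hp2 hq hqp hQ hn⟩

theorem fm_sup (h : Mn p x) (hp2 : p ≠ 2) (hq : q.Prime) (hqp : q ≠ p) (hx : x ∈ H) :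
    Fm q x (⁅pCoreOf q H, zpowers x⁆ ⊔ pCoreOf q (centralizer ({x} : Set G)) ⊓ H) := by
  have k := fm_comm h hp2 hq hqp (pCoreOf_isPGroup q H) (le_normalizer_pCoreOf q H hx)
  have yc : pCoreOf q (centralizer ({x} : Set G)) ⊓ H ≤ centralizer ({x} : Set G) :=
    inf_le_left.trans (pCoreOf_le q _)
  have n : pCoreOf q (centralizer ({x} : Set G)) ⊓ H ≤
      normalizer ((⁅pCoreOf q H, zpowers x⁆ : Subgroup G) : Set G) :=
    MSS.le_normalizer_commutator (inf_le_right.trans (le_normalizer_pCoreOf q H))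
      fun y hy => mem_normalizer_iff_cj.2 (cjz (yc hy))
  refine ⟨isPGroup_sup_of_normalizes' k.1 (pCoreOf_isPGroup q _).to_inf_left n, ?_, fun r hr => ?_⟩
  · refine MSS.le_normalizer_sup (zpowers_le.2 k.2.1) (zpowers_le.2 (centralizer_le_normalizer _ ?_)) (mem_zpowers x)
    exact fun y hy => mem_centralizer_singleton_iff.1 (yc hy)
  · obtain ⟨u, hu, y, hy, rfl⟩ := (mem_sup_of_normalizes_left n).1 hr.1
    exact mul_mem (k.2.2 ⟨hu, (mul_mem_cancel_right (yc hy)).1 hr.2⟩) hy.1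

theorem le_sup (h : Mn p x) (hq : q.Prime) (hqp : q ≠ p) (hH : H ≠ ⊤) (hx : x ∈ H) (k : Fm q x R) :
    R ⊓ H ≤ ⁅pCoreOf q H, zpowers x⁆ ⊔ pCoreOf q (centralizer ({x} : Set G)) ⊓ H := by
  have n : x ∈ normalizer ((R ⊓ H : Subgroup G) : Set G) :=
    MSS.le_normalizer_inf (zpowers_le.2 k.2.1) ((zpowers_le.2 hx).trans le_normalizer) (mem_zpowers x)
  have c := cop_of_ne hq hqp (k.1.to_inf_left (K := H))
  refine h.le_of_comm c n (le_sup_of_le_left ?_) (le_sup_of_le_right fun r hr => ⟨k.2.2 ⟨hr.1.1, hr.2⟩, hr.1.2⟩)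
  rw [← h.comm_comm c n]
  exact commutator_mono (h.comm_le hH hx hq hqp k.1.to_inf_left n inf_le_right) le_rfl

theorem ti (h : Mn p x) (hp2 : p ≠ 2) (hq : q.Prime) (hqp : q ≠ p) {R₁ R₂ : Subgroup G}
    (m₁ : Maximal (Fm q x) R₁) (m₂ : Maximal (Fm q x) R₂) (ne : R₁ ⊓ R₂ ≠ ⊥) : R₁ = R₂ := by
  obtain ⟨c, hc, e⟩ := trans hq (Fm q x) ⊥ (fun _ k => k.1)
    (fun R k c hc => by rwa [mem_bot.1 hc, cj_one]) (fun R₁ R₂ k₁ k₂ ne => by
      have hH := h.loc q hq _ (k₁.1.to_inf_left (K := R₂)) ne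
      have hx : x ∈ normalizer ((R₁ ⊓ R₂ : Subgroup G) : Set G) :=
        MSS.le_normalizer_inf (zpowers_le.2 k₁.2.1) (zpowers_le.2 k₂.2.1) (mem_zpowers x)
      exact ⟨1, one_mem _, _, fm_sup h hp2 hq hqp hx, by rw [cj_one]; exact le_sup h hq hqp hH hx k₁,
        le_sup h hq hqp hH hx k₂⟩) m₁ m₂ ne
  rwa [mem_bot.1 hc, cj_one] at e

theorem norm (h : Mn p x) (hp2 : p ≠ 2) (hq : q.Prime) (hqp : q ≠ p) (m : Maximal (Fm q x) R)
    (ne : ⁅R, zpowers x⁆ ≠ ⊥) (hc : c ∈ centralizer ({x} : Set G)) : c •ᶜ R = R := by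
  have cp := cop_of_ne hq hqp m.1.1
  obtain ⟨a, ha, na⟩ : ∃ a ∈ R, a * x * a⁻¹ ≠ x := by
    by_contra k
    push Not at k
    refine ne (commutator_eq_bot_iff_le_centralizer.2 fun a ha => ?_)
    rw [zpowers_eq_closure, centralizer_closure, mem_centralizer_singleton_iff]
    exact mul_inv_eq_iff_eq_mul.1 (k a ha)
  obtain ⟨H, hH, hx, cH, aH⟩ := h.trick cp m.1.2.1 ha (mem_centralizer_singleton_iff.1 hc)
  obtain ⟨b, hb, bc, e⟩ := h.rep cp m.1.2.1 ha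
  have bO : b ∈ pCoreOf q H := h.good H hH q hq hqp (zpowers b) (zpowers_le.2 ((closure_le _).2 (by
    rintro _ (rfl | rfl)
    · exact self_mem_Cl hx
    · exact mem_Cl (isConj_cj x a) aH) bc)) (m.1.1.to_le (zpowers_le.2 hb)) (mem_zpowers b)
  have s1 : ⁅b, x⁆ ≠ 1 := fun k => na (by rw [← e]; exact mul_inv_eq_one.1 k)
  have s2 : ⁅b, x⁆ ∈ R := commutator_le_left_of_normalizes (zpowers_le.2 m.1.2.1)
    (commutator_mem_commutator hb (mem_zpowers x))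
  have s3 : ⁅b, x⁆ ∈ ⁅pCoreOf q H, zpowers x⁆ := commutator_mem_commutator bO (mem_zpowers x)
  have s4 : c * ⁅b, x⁆ * c⁻¹ ∈ ⁅pCoreOf q H, zpowers x⁆ := by
    have := conj_mem_cj (g := c) s3
    rwa [cj_commutator, cjz hc, cj_eq_of_mem_normalizer (le_normalizer_pCoreOf q H cH)] at this
  obtain ⟨R', le, m'⟩ := exists_max _ (fm_sup h hp2 hq hqp hx)
  rw [ti h hp2 hq hqp (max_cj m hc) m' fun k => s1 ?_, ti h hp2 hq hqp m m' fun k => s1 ?_]
  · exact mem_bot.1 (k ▸ mem_inf.2 ⟨s2, le (mem_sup_left s3)⟩)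
  · have : c * ⁅b, x⁆ * c⁻¹ ∈ (⊥ : Subgroup G) := k ▸ mem_inf.2 ⟨conj_mem_cj s2, le (mem_sup_left s4)⟩
    exact conj_eq_one_iff.1 (mem_bot.1 this)

theorem le_S (hS : ∀ g : G, ⁅x, g⁆ ∈ pPrimeCore p G) (Q : Subgroup G) : ⁅Q, zpowers x⁆ ≤ pPrimeCore p G := by
  refine commutator_le.2 fun a _ w hw => ?_
  obtain ⟨n, rfl⟩ := hw
  rw [← QuotientGroup.eq_one_iff, ← QuotientGroup.mk'_apply, map_commutatorElement,
    commutatorElement_eq_one_iff_commute, map_zpow]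
  refine (Commute.symm ?_).zpow_right n
  rw [← commutatorElement_eq_one_iff_commute, ← map_commutatorElement, QuotientGroup.mk'_apply,
    QuotientGroup.eq_one_iff]
  exact hS a

end A2

/-- `F R := IsPGroup q R ∧ x ∈ N(R) ∧ R ⊓ C(x) ≤ Y`, `Y = O_q(C(x))`, `Γ = ⊥` in `trans`
(`R₃ = [O_q(H), x] ⊔ (Y ⊓ H)`, `H = N(R₁ ⊓ R₂)`; fixed points of the product by Dedekind and `fp`).
A maximal `R` with `[R, x] ≠ ⊥` is normalized by `c ∈ C(x)`: take `a ∈ R` with `[a, x] ≠ 1`; by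
`trick`, `[a, x]` and its `c`-conjugate lie in `[O_q(H), x]` (`rep`: `b ∈ R ⊓ Cl x H ≤ O_q(H)`), a member
of `F`. All `q`-subgroups lie in `S = O_{p'}(G)` (`G = S ⟨x⟩`); `x`-invariant Sylow `q`-subgroups of `S`
are conjugate under `C(x)` (`coprime_exists_invariant_sylow_ge`, `coprime_invariant_sylow_conj`), so
all nontrivial `[Q, x]` lie in one maximal `R`. -/
theorem Mn.caseA2 (h : Mn p x) (hp2 : p ≠ 2) (hS : ∀ g : G, ⁅x, g⁆ ∈ pPrimeCore p G) {q : ℕ}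
    (hq : q.Prime) (hqp : q ≠ p) : IsPGroup q (Kq q x) := by
  have := Fact.mk hq
  by_cases ex : ∀ Q : Subgroup G, IsPGroup q Q → x ∈ normalizer (Q : Set G) → ⁅Q, zpowers x⁆ ≤ ⊥
  · exact IsPGroup.of_bot.to_le (Kq_le ex)
  push Not at ex
  obtain ⟨Q₀, q1, q2, q3⟩ := ex
  have cc : ∀ {Q : Subgroup G}, IsPGroup q Q → x ∈ normalizer (Q : Set G) →
      ⁅⁅Q, zpowers x⁆, zpowers x⁆ = ⁅Q, zpowers x⁆ := fun k1 k2 => h.comm_comm (cop_of_ne hq hqp k1) k2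
  have k₀ := A2.fm_comm h hp2 hq hqp q1 q2
  obtain ⟨R₀, le₀, m₀⟩ := exists_max _ k₀
  have ne₀ : ⁅R₀, zpowers x⁆ ≠ ⊥ := fun e => q3 (by
    rw [← cc q1 q2, ← e]
    exact commutator_mono le₀ le_rfl)
  refine m₀.1.1.to_le (Kq_le fun Q k1 k2 => ?_)
  have k := A2.fm_comm h hp2 hq hqp k1 k2
  have nS : zpowers x ≤ normalizer (pPrimeCore p G : Set G) := le_normalizer_of_normal
  have cS := h.cop (pPrimeCore_coprime (G := G) p)
  have sv : Group.IsSolvable (zpowers x) ∨ Group.IsSolvable (pPrimeCore p G) := Or.inl (isSolvable_of_isPGroup h.pg)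
  obtain ⟨P, p1, p2⟩ := coprime_exists_invariant_sylow_ge _ _ nS cS sv q _ (A2.le_S hS Q) k.1 (zpowers_le.2 k.2.1)
  obtain ⟨P₀, p3, p4⟩ := coprime_exists_invariant_sylow_ge _ _ nS cS sv q _ (A2.le_S hS Q₀) k₀.1
    (zpowers_le.2 k₀.2.1)
  obtain ⟨c, hc, e⟩ := coprime_invariant_sylow_conj _ _ nS cS sv q P P₀ p2 p4
  have hc' : c ∈ centralizer ({x} : Set G) := mem_centralizer_singleton_iff.2 (hc.2 x (mem_zpowers x)).symm
  obtain ⟨R', le', m'⟩ := exists_max _ (A2.fm_comm h hp2 hq hqp (P₀.isPGroup'.map _) (p4 (mem_zpowers x)))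
  have e' : R₀ = R' := A2.ti h hp2 hq hqp m₀ m' fun z => q3 (z ▸ le_inf le₀ (le_trans (by
    rw [← cc q1 q2]
    exact commutator_mono p3 le_rfl) le'))
  rw [← cj_le_cj_iff c, A2.norm h hp2 hq hqp m₀ ne₀ hc', e', ← cc k1 k2, cj_commutator, A2.cjz hc']
  exact le_trans (commutator_mono ((cj_mono c p1).trans (le_of_eq e)) le_rfl) le'

end CL.F2
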