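import Cfsg.Agent.FGS.F2.Bas
import Cfsg.Agent.FGS.F2.TI
import Cfsg.Agent.SOLV.CoprimeGen

/-! The case of two commuting conjugates. -/

set_option autoImplicit false
set_option linter.unusedSectionVars false

namespace CL.F2
open Subgroup Cfsg CL.MSS CL.PComp CL.Comp
open scoped commutatorElement

variable {G : Type*} [Group G] [Finite G] {p : ℕ} [hp : Fact p.Prime] {x : G}

namespace CB

/-- The group generated by two commuting elements. -/
def E (x y : G) : Subgroup G := zpowers x ⊔ zpowers y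

/-- The commutator of `O_q(C(e))` with `x`. -/
def A (x : G) (q : ℕ) (e : G) : Subgroup G :=
  ⁅pCoreOf q (centralizer ({e} : Set G)), zpowers x⁆

theorem zp {g w : G} (hg : g ^ p = 1) (hw : w ∈ zpowers g) (h1 : w ≠ 1) : g ∈ zpowers w := by
  have h3 : orderOf g ∣ p := orderOf_dvd_of_pow_eq_one hg
  have : zpowers w = zpowers g := by
    refine eq_of_le_of_card_ge (zpowers_le.2 hw) ?_
    have h2 : Nat.card (zpowers w) ∣ p :=
      (card_dvd_of_le (zpowers_le.2 hw)).trans (by rwa [Nat.card_zpowers])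
    rcases (Nat.dvd_prime hp.out).1 h2 with e | e
    · exact absurd (zpowers_eq_bot.1 (card_eq_one.1 e)) h1
    · rw [e, Nat.card_zpowers]
      exact Nat.le_of_dvd hp.out.pos h3
  exact this ▸ mem_zpowers g

theorem mz {v u : G} (hc : Commute v u) (hv : v ^ p = 1) (hu : (orderOf u).Coprime p)
    {H : Subgroup G} (h : v * u ∈ H) : v ∈ H ∧ u ∈ H := by
  have h1 : v ^ orderOf u ∈ H := by
    rw [← mul_one (v ^ orderOf u), ← pow_orderOf_eq_one u, ← hc.mul_pow]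
    exact pow_mem h _
  have h2 : v ∈ H := zpowers_le.2 h1
    (mem_zpowers_pow_iff.2 (hu.coprime_dvd_right (orderOf_dvd_of_pow_eq_one hv)))
  exact ⟨h2, (mul_mem_cancel_left h2).1 h⟩

theorem czp {g v u : G} (hc : Commute g u) (hv : v ∈ zpowers g) : Commute v u := by
  obtain ⟨i, rfl⟩ := hv
  exact hc.zpow_left i

theorem pzp {g v : G} (hg : g ^ p = 1) (hv : v ∈ zpowers g) : v ^ p = 1 := by
  obtain ⟨i, rfl⟩ := hv
  show (g ^ i) ^ p = 1
  rw [← zpow_natCast, ← zpow_mul, mul_comm, zpow_mul, zpow_natCast, hg, one_zpow]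

theorem xE (x y : G) : x ∈ E x y := mem_sup_left (mem_zpowers x)

theorem yE (x y : G) : y ∈ E x y := mem_sup_right (mem_zpowers y)

theorem E_le {x y : G} {H : Subgroup G} (hx : x ∈ H) (hy : y ∈ H) : E x y ≤ H :=
  sup_le (zpowers_le.2 hx) (zpowers_le.2 hy)

theorem nz {g c : G} (hc : Commute c g) : c ∈ normalizer ((zpowers g : Subgroup G) : Set G) :=
  mem_normalizer_iff_cj.2 (by rw [cj_zpowers, hc.eq, mul_inv_cancel_right])

theorem memE {y e : G} (hc : Commute x y) (he : e ∈ E x y) :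
    ∃ w ∈ zpowers x, ∃ v ∈ zpowers y, w * v = e :=
  (mem_sup_of_normalizes_right (zpowers_le.2 (nz hc))).1 he

theorem cE {y c e : G} (h1 : Commute c x) (h2 : Commute c y) (he : e ∈ E x y) : Commute c e :=
  (mem_centralizer_singleton_iff.1 (E_le (H := centralizer ({c} : Set G))
    (mem_centralizer_singleton_iff.2 h1.symm.eq) (mem_centralizer_singleton_iff.2 h2.symm.eq) he) :
      Commute e c).symm

theorem EE {y e f : G} (hc : Commute x y) (he : e ∈ E x y) (hf : f ∈ E x y) : Commute e f :=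
  cE (cE (Commute.refl x) hc he).symm (cE hc.symm (Commute.refl y) he).symm hf

theorem pE {y e : G} (hc : Commute x y) (hx : x ^ p = 1) (hy : y ^ p = 1) (he : e ∈ E x y) :
    e ^ p = 1 := by
  obtain ⟨w, hw, v, hv, rfl⟩ := memE hc he
  rw [(czp (czp hc.symm hv).symm hw).mul_pow, pzp hx hw, pzp hy hv, one_mul]

theorem E_le_E {y f : G} (hc : Commute x y) (hy : y ^ p = 1) (hf : f ∈ E x y)
    (hn : f ∉ zpowers x) : E x y ≤ E x f := by
  obtain ⟨w, hw, v, hv, e⟩ := memE hc hf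
  refine E_le (xE x f) (zpowers_le.2 ?_ (zp hy hv fun e1 => hn ?_))
  · exact (mul_mem_cancel_left (mem_sup_left hw)).1 (e ▸ yE x f)
  · rw [← e, e1, mul_one]
    exact hw

theorem cm_mem {K : Subgroup G} {b w : G} (hx : x ∈ K) (hb : b * x * b⁻¹ ∈ K)
    (hw : w ∈ zpowers x) : ⁅b, w⁆ ∈ K := by
  have h1 : b •ᶜ zpowers x ≤ K := by
    rw [cj_zpowers]
    exact zpowers_le.2 hb
  exact K.mul_mem (h1 (conj_mem_cj hw)) (K.inv_mem (zpowers_le.2 hx hw))

theorem xp (h : Mn p x) : x ^ p = 1 := by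
  have := pow_orderOf_eq_one x
  rwa [h.ord] at this

theorem b3 (h : Mn p x) {e f a b : G} (hc : Commute x f) (hf : f ^ p = 1) (he : e ∈ E x f)
    (hn : e ∉ zpowers x) (ha : Commute e a) (hap : (orderOf a).Coprime p) {r : ℕ} (hr : r.Prime)
    (hrp : r ≠ p) (hb : b ∈ pCoreOf r (centralizer ({f} : Set G))) :
    ∃ H : Subgroup G, H ≠ ⊤ ∧ x ∈ H ∧ f ∈ H ∧ a ∈ H ∧ b * x * b⁻¹ ∈ H := by
  obtain ⟨w, hw, v, hv, e1⟩ := memE hc he
  have hv1 : v ≠ 1 := fun e2 => hn (by rw [← e1, e2, mul_one]; exact hw)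
  have hfv := zp hf hv hv1
  have hxC : x ∈ centralizer ({f} : Set G) := mem_centralizer_singleton_iff.2 hc.eq
  by_cases hw1 : w = 1
  · rw [hw1, one_mul] at e1
    subst e1
    refine ⟨centralizer {f}, h.cen_ne_top fun e2 => hv1 ?_, hxC,
      mem_centralizer_singleton_iff.2 rfl, mem_centralizer_singleton_iff.2 (czp ha hfv).symm.eq,
      mul_mem (mul_mem (pCoreOf_le _ _ hb) hxC) (inv_mem (pCoreOf_le _ _ hb))⟩
    rwa [e2, zpowers_one_eq_bot, mem_bot] at hv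
  · have hH := h.two (b * x * b⁻¹) (e * a) (isConj_cj x b)
    set H := closure ({b * x * b⁻¹, e * a} : Set G)
    have h1 : b * x * b⁻¹ ∈ H := subset_closure (by simp)
    have h2 := mz ha (pE hc (xp h) hf he) hap (H := H) (subset_closure (by simp))
    have h3 : b * w * b⁻¹ ∈ H := by
      have h4 : b •ᶜ zpowers x ≤ H := by
        rw [cj_zpowers]
        exact zpowers_le.2 h1
      exact h4 (conj_mem_cj hw)
    have hu : w * b * w⁻¹ * b⁻¹ ∈ pCoreOf r (centralizer ({f} : Set G)) :=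
      mul_mem (conj_mem_of_normalizes (le_normalizer_pCoreOf r _) (zpowers_le.2 hxC hw) hb)
        (inv_mem hb)
    have hvw : Commute v w := czp (czp hc hw).symm hv
    have h5 : v * (w * b * w⁻¹ * b⁻¹) ∈ H := by
      have : v * (w * b * w⁻¹ * b⁻¹) = e * (b * w * b⁻¹)⁻¹ := by
        rw [← e1, ← hvw.eq]
        group
      rw [this]
      exact mul_mem h2.1 (inv_mem h3)
    have h6 := (mz (czp (show Commute _ f from
      mem_centralizer_singleton_iff.1 (pCoreOf_le _ _ hu)).symm hv) (pzp hf hv)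
      (coprime_orderOf_of_mem (cop_of_ne hr hrp (pCoreOf_isPGroup r _)) hu) h5).1
    have h7 : w ∈ H := (mul_mem_cancel_right h6).1 (e1 ▸ h2.1)
    exact ⟨H, hH, zpowers_le.2 h7 (zp (xp h) hw hw1), zpowers_le.2 h6 hfv, h2.2, h1⟩

theorem core_mem (h : Mn p x) {H U : Subgroup G} (hH : H ≠ ⊤) (hx : x ∈ H) {q : ℕ} (hq : q.Prime)
    (hqp : q ≠ p) (hU : IsPGroup q U) (hn : x ∈ normalizer (U : Set G)) {b w : G} (hb : b ∈ U)
    (hbH : b * x * b⁻¹ ∈ H) (hw : w ∈ zpowers x) : ⁅b, w⁆ ∈ pCoreOf q H :=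
  h.good H hH q hq hqp (zpowers ⁅b, w⁆)
    (zpowers_le.2 (cm_mem (self_mem_Cl hx) (mem_Cl (isConj_cj x b) hbH) hw))
    (hU.to_le (zpowers_le.2 (commutator_le_left_of_normalizes (zpowers_le.2 hn)
      (commutator_mem_commutator hb hw)))) (mem_zpowers _)

theorem ncore {e c : G} (q : ℕ) (hc : Commute c e) :
    c ∈ normalizer (pCoreOf q (centralizer ({e} : Set G)) : Set G) :=
  le_normalizer_pCoreOf q _ (mem_centralizer_singleton_iff.2 hc.eq)

theorem b4 (h : Mn p x) {y : G} (hy : IsConj x y) (hc : Commute x y) {e f a b w w' : G}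
    (he : e ∈ E x y) (he' : e ∉ zpowers x) (hf : f ∈ E x y) (hf' : f ∉ zpowers x) {q r : ℕ}
    (hq : q.Prime) (hqp : q ≠ p) (hr : r.Prime) (hrp : r ≠ p)
    (ha : a ∈ pCoreOf q (centralizer ({e} : Set G))) (hb : b ∈ pCoreOf r (centralizer ({f} : Set G)))
    (hw : w ∈ zpowers x) (hw' : w' ∈ zpowers x) :
    ∃ H : Subgroup G, H ≠ ⊤ ∧ E x y ≤ H ∧ ⁅a, w⁆ ∈ pCoreOf q H ∧ ⁅b, w'⁆ ∈ pCoreOf r H := by
  have hyp := xp (h.conj hy)
  have hle := E_le_E hc hyp hf hf'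
  obtain ⟨H, hH, hx, hfH, haH, hbH⟩ := b3 h (EE hc (xE x y) hf) (pE hc (xp h) hyp hf) (hle he) he'
    (show Commute a e from mem_centralizer_singleton_iff.1 (pCoreOf_le _ _ ha)).symm
    (coprime_orderOf_of_mem (cop_of_ne hq hqp (pCoreOf_isPGroup q _)) ha) hr hrp hb
  exact ⟨H, hH, hle.trans (E_le hx hfH),
    core_mem h hH hx hq hqp (pCoreOf_isPGroup q _) (ncore q (EE hc (xE x y) he)) ha
      (mul_mem (mul_mem haH hx) (inv_mem haH)) hw,
    core_mem h hH hx hr hrp (pCoreOf_isPGroup r _) (ncore r (EE hc (xE x y) hf)) hb hbH hw'⟩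

theorem core_comm {q r : ℕ} (hq : q.Prime) (hr : r.Prime) (hne : r ≠ q) (H : Subgroup G) {a b : G}
    (ha : a ∈ pCoreOf q H) (hb : b ∈ pCoreOf r H) : Commute a b := by
  have := Fact.mk hq
  have h1 := inf_eq_bot_of_isPGroup_of_coprime (pCoreOf_isPGroup q H)
    (cop_of_ne hr hne (pCoreOf_isPGroup r H))
  have h2 : ⁅a, b⁆ ∈ pCoreOf q H ⊓ pCoreOf r H :=
    ⟨commutator_le_left_of_normalizes ((pCoreOf_le r H).trans (le_normalizer_pCoreOf q H))
      (commutator_mem_commutator ha hb),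
    commutator_le_right_of_normalizes ((pCoreOf_le q H).trans (le_normalizer_pCoreOf r H))
      (commutator_mem_commutator ha hb)⟩
  rw [h1, mem_bot] at h2
  exact commutatorElement_eq_one_iff_commute.1 h2

theorem A_cen (h : Mn p x) {y : G} (hy : IsConj x y) (hc : Commute x y) {e f : G}
    (he : e ∈ E x y) (he' : e ∉ zpowers x) (hf : f ∈ E x y) (hf' : f ∉ zpowers x) {q r : ℕ}
    (hq : q.Prime) (hqp : q ≠ p) (hr : r.Prime) (hrp : r ≠ p) (hne : r ≠ q) :
    A x q e ≤ centralizer (A x r f : Set G) := commutator_le.2 fun a ha w hw => by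
  have : A x r f ≤ centralizer ({⁅a, w⁆} : Set G) := commutator_le.2 fun b hb w' hw' => by
    obtain ⟨H, -, -, h1, h2⟩ := b4 h hy hc he he' hf hf' hq hqp hr hrp ha hb hw hw'
    exact mem_centralizer_singleton_iff.2 (core_comm hq hr hne H h1 h2).symm.eq
  exact fun g hg => mem_centralizer_singleton_iff.1 (this hg)

theorem A_norm {y e : G} (he : e ∈ E x y) (q : ℕ) :
    centralizer (E x y : Set G) ≤ normalizer (A x q e : Set G) :=
  le_normalizer_commutator (fun c hc => ncore q (show Commute e c from hc e he).symm)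
    fun c hc => nz (show Commute x c from hc x (xE x y)).symm

theorem A_pg {e : G} (hc : Commute x e) (q : ℕ) : IsPGroup q (A x q e) :=
  (pCoreOf_isPGroup q _).to_le (commutator_le_left_of_normalizes (zpowers_le.2 (ncore q hc)))

theorem E_cen {y : G} (hc : Commute x y) : E x y ≤ centralizer (E x y : Set G) :=
  fun _ he _ hf => (EE hc hf he).eq

theorem split (h : Mn p x) {y : G} (hy : IsConj x y) (hc : Commute x y) {H U : Subgroup G}
    (hH : H ≠ ⊤) (hE : E x y ≤ H) {q : ℕ} (hq : q.Prime) (hqp : q ≠ p) (hU : IsPGroup q U)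
    (hn : E x y ≤ normalizer (U : Set G)) (hle : U ≤ H) :
    U ≤ pCoreOf q H ⊔ (U ⊓ centralizer (E x y : Set G)) := by
  refine h.le_of_comm (cop_of_ne hq hqp hU) (hn (xE x y))
    ((h.comm_le hH (hE (xE x y)) hq hqp hU (hn (xE x y)) hle).trans le_sup_left) ?_
  have hU' : IsPGroup q (U ⊓ centralizer ({x} : Set G) : Subgroup G) := hU.to_le inf_le_left
  have hn' : y ∈ normalizer ((U ⊓ centralizer ({x} : Set G) : Subgroup G) : Set G) :=
    le_normalizer_inf (zpowers_le.2 (hn (yE x y)))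
      ((zpowers_le.2 (mem_centralizer_singleton_iff.2 hc.symm.eq)).trans le_normalizer)
      (mem_zpowers y)
  refine (h.conj hy).le_of_comm (cop_of_ne hq hqp hU') hn'
    (((h.conj hy).comm_le hH (hE (yE x y)) hq hqp hU' hn' (inf_le_left.trans hle)).trans
      le_sup_left) (fun g hg => mem_sup_right (mem_inf.2 ⟨hg.1.1, fun e he => ?_⟩))
  exact (cE (mem_centralizer_singleton_iff.1 hg.1.2) (mem_centralizer_singleton_iff.1 hg.2)
    he).symm.eq

theorem tr (h : Mn p x) {y : G} (hy : IsConj x y) (hc : Commute x y) {q : ℕ} (hq : q.Prime)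
    (hqp : q ≠ p) {R₁ R₂ : Subgroup G}
    (m₁ : Maximal (fun R : Subgroup G => IsPGroup q R ∧ E x y ≤ normalizer (R : Set G)) R₁)
    (m₂ : Maximal (fun R : Subgroup G => IsPGroup q R ∧ E x y ≤ normalizer (R : Set G)) R₂)
    (hne : R₁ ⊓ R₂ ≠ ⊥) : ∃ c ∈ centralizer (E x y : Set G), c •ᶜ R₁ = R₂ := by
  refine trans hq _ _ (fun R hR => hR.1) ?_ ?_ m₁ m₂ hne
  · refine fun R hR c hcc => ⟨isPGroup_cj c hR.1, ?_⟩
    rw [← cj_normalizer, ← cj_eq_of_mem_centralizer hcc]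
    exact cj_mono c hR.2
  · intro R₁ R₂ h₁ h₂ hI
    have hH := h.loc q hq _ (h₁.1.to_le inf_le_left) hI
    have hE := le_normalizer_inf h₁.2 h₂.2
    set H := normalizer ((R₁ ⊓ R₂ : Subgroup G) : Set G)
    have s₁ := split h hy hc hH hE hq hqp (h₁.1.to_le (inf_le_left (b := H)))
      (le_normalizer_inf h₁.2 (hE.trans le_normalizer)) inf_le_right
    have s₂ := split h hy hc hH hE hq hqp (h₂.1.to_le (inf_le_left (b := H)))
      (le_normalizer_inf h₂.2 (hE.trans le_normalizer)) inf_le_right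
    have := Fact.mk hq
    obtain ⟨S, hS, hT⟩ := exists_sylIn_ge (H := H ⊓ centralizer (E x y : Set G))
      (R := R₂ ⊓ H ⊓ centralizer (E x y : Set G)) (h₂.1.to_le (inf_le_left.trans inf_le_left))
      (inf_le_inf_right _ inf_le_right)
    obtain ⟨c, hcc, hT'⟩ := hS.exists_conj_le (R := R₁ ⊓ H ⊓ centralizer (E x y : Set G))
      (h₁.1.to_le (inf_le_left.trans inf_le_left)) (inf_le_inf_right _ inf_le_right)
    refine ⟨c, hcc.2, pCoreOf q H ⊔ S, ⟨isPGroup_sup_of_normalizes' (pCoreOf_isPGroup q H)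
      hS.pgroup ((hS.le.trans inf_le_left).trans (le_normalizer_pCoreOf q H)),
      le_normalizer_sup (hE.trans (le_normalizer_pCoreOf q H))
        ((le_centralizer_iff.1 (hS.le.trans inf_le_right)).trans (centralizer_le_normalizer _))⟩,
      (cj_mono c s₁).trans ?_, s₂.trans (sup_le_sup_left hT _)⟩
    rw [cj_sup, cj_eq_of_mem_normalizer (le_normalizer_pCoreOf q H hcc.1)]
    exact sup_le_sup_left hT' _

theorem A_ne {e : G} {q : ℕ} (h : A x q e ≠ ⊥) :
    ∃ a ∈ pCoreOf q (centralizer ({e} : Set G)), ∃ w ∈ zpowers x, ⁅a, w⁆ ≠ 1 := by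
  by_contra h0
  push Not at h0
  exact h (eq_bot_iff.2 (commutator_le.2 fun a ha w hw => mem_bot.2 (h0 a ha w hw)))

theorem one (h : Mn p x) {y : G} (hy : IsConj x y) (hc : Commute x y) {q : ℕ} (hq : q.Prime)
    (hqp : q ≠ p) {e : G} (he : e ∈ E x y) (he' : e ∉ zpowers x) (hA : A x q e ≠ ⊥) :
    ∃ R : Subgroup G, IsPGroup q R ∧ ∀ f ∈ E x y, f ∉ zpowers x → A x q f ≤ R := by
  have hF : ∀ f ∈ E x y, IsPGroup q (A x q f) ∧ E x y ≤ normalizer (A x q f : Set G) :=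
    fun f hf => ⟨A_pg (EE hc (xE x y) hf) q, (E_cen hc).trans (A_norm hf q)⟩
  obtain ⟨R, hR, m⟩ := exists_max
    (fun R : Subgroup G => IsPGroup q R ∧ E x y ≤ normalizer (R : Set G)) (hF e he)
  refine ⟨R, m.prop.1, fun f hf hf' => ?_⟩
  by_cases hB : A x q f = ⊥
  · rw [hB]
    exact bot_le
  obtain ⟨R₁, hR₁, m₁⟩ := exists_max
    (fun R : Subgroup G => IsPGroup q R ∧ E x y ≤ normalizer (R : Set G)) (hF f hf)
  obtain ⟨a, ha, w, hw, h1⟩ := A_ne hA
  obtain ⟨b, hb, w', hw', h2⟩ := A_ne hB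
  obtain ⟨H, -, hE, h3, h4⟩ := b4 h hy hc he he' hf hf' hq hqp hq hqp ha hb hw hw'
  obtain ⟨R₂, hR₂, m₂⟩ := exists_max
    (fun R : Subgroup G => IsPGroup q R ∧ E x y ≤ normalizer (R : Set G))
    (R := pCoreOf q H) ⟨pCoreOf_isPGroup q H, hE.trans (le_normalizer_pCoreOf q H)⟩
  obtain ⟨c, hcc, e1⟩ := tr h hy hc hq hqp m₁ m₂ fun e0 => h2 (mem_bot.1 (e0 ▸
    (⟨hR₁ (commutator_mem_commutator hb hw'), hR₂ h4⟩ : ⁅b, w'⁆ ∈ R₁ ⊓ R₂)))
  obtain ⟨d, hd, e2⟩ := tr h hy hc hq hqp m₂ m fun e0 => h1 (mem_bot.1 (e0 ▸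
    (⟨hR₂ h3, hR (commutator_mem_commutator ha hw)⟩ : ⁅a, w⁆ ∈ R₂ ⊓ R)))
  rw [← e2, ← e1, ← cj_mul, ← cj_eq_of_mem_normalizer (A_norm hf q (mul_mem hd hcc))]
  exact cj_mono _ hR₁

theorem h0 (h : Mn p x) {y : G} (hy : IsConj x y) (hc : Commute x y) :
    ∃ H : Subgroup G, H ≠ ⊤ ∧ x ∈ H ∧ ∀ r : ℕ, r.Prime → r ≠ p → ∀ f ∈ E x y, f ∉ zpowers x →
      A x r f ≤ H := by
  by_cases hA : ∀ r : ℕ, r.Prime → r ≠ p → ∀ f ∈ E x y, f ∉ zpowers x → A x r f = ⊥
  · exact ⟨centralizer {x}, h.cen_ne_top h.ne_one, mem_centralizer_singleton_iff.2 rfl,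
      fun r hr hrp f hf hf' => (hA r hr hrp f hf hf').le.trans bot_le⟩
  push Not at hA
  obtain ⟨q, hq, hqp, e, he, he', hA⟩ := hA
  obtain ⟨R, hR, hle⟩ := one h hy hc hq hqp he he' hA
  let J : Subgroup G := ⨆ f : {f // f ∈ E x y ∧ f ∉ zpowers x}, A x q f
  have hJ : ∀ f ∈ E x y, f ∉ zpowers x → A x q f ≤ J := fun f hf hf' =>
    le_iSup (fun f : {f // f ∈ E x y ∧ f ∉ zpowers x} => A x q f) ⟨f, hf, hf'⟩
  refine ⟨normalizer (J : Set G), h.loc q hq J (hR.to_le (iSup_le fun f => hle f f.2.1 f.2.2))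
    fun e0 => hA (eq_bot_iff.2 (e0 ▸ hJ e he he')),
    le_normalizer_iSup (fun f => (E_cen hc).trans (A_norm f.2.1 q)) (xE x y),
    fun r hr hrp f hf hf' => ?_⟩
  by_cases e0 : r = q
  · rw [e0]
    exact (hJ f hf hf').trans le_normalizer
  · exact le_normalizer_iSup fun g => (A_cen h hy hc hf hf' g.2.1 g.2.2 hr hrp hq hqp
      (Ne.symm e0)).trans (centralizer_le_normalizer _)

theorem a1 (h : Mn p x) {y : G} (hy : IsConj x y) (hc : Commute x y) (hn : y ∉ zpowers x)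
    {H₀ : Subgroup G} (hx : x ∈ H₀) {q : ℕ} (hq : q.Prime) (hqp : q ≠ p)
    (hA : ∀ f ∈ E x y, f ∉ zpowers x → A x q f ≤ H₀) {V : Subgroup G} (hV : IsPGroup q V)
    (hE : E x y ≤ normalizer (V : Set G)) : ⁅V, zpowers x⁆ ≤ H₀ := by
  have := Fact.mk hq
  have hyp := xp (h.conj hy)
  have hxV := hE (xE x y)
  have hP : IsPGroup q (⁅V, zpowers x⁆ : Subgroup G) :=
    hV.to_le (commutator_le_left_of_normalizes (zpowers_le.2 hxV))
  have hN : E x y ≤ normalizer ((⁅V, zpowers x⁆ : Subgroup G) : Set G) :=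
    le_normalizer_commutator hE fun c hcc => nz (EE hc hcc (xE x y))
  have : IsMulCommutative (E x y) := ⟨⟨fun a b => Subtype.ext (EE hc a.2 b.2).eq⟩⟩
  have hEp : IsPGroup p (E x y) :=
    isPGroup_iff_forall_mem.2 fun e he => ⟨1, by rw [pow_one]; exact pE hc (xp h) hyp he⟩
  refine le_of_gen hP.isNilpotent (zpowers_le.2 (norm_comm hxV))
    (h.comm_comm (cop_of_ne hq hqp hV) hxV) fun K hK =>
    coprime_le_of_forall_centralizer_le (E x y) _ K (fun hcy => hn ?_) hN ?_ fun e he he1 a ha => ?_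
  · obtain ⟨g, hg⟩ := (Subgroup.isCyclic_iff_exists_zpowers_eq_top _).1 hcy
    exact zpowers_le.2 (zp (pE hc (xp h) hyp (hg ▸ mem_zpowers g)) (hg ▸ xE x y) h.ne_one)
      (hg ▸ yE x y)
  · obtain ⟨k, hk⟩ := hEp.exists_card_eq
    rw [hk]
    exact Nat.Coprime.pow_left k (cop_of_ne hq hqp hP).symm
  refine hK a ha.1 ((commutator_mono (zpowers_le.2 ha) le_rfl).trans ?_)
  by_cases he' : e ∈ zpowers x
  · refine comm_le_of_conj hx fun g hg => ?_
    rw [(czp (show Commute g e from mem_centralizer_singleton_iff.1 hg.2).symm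
      (zp (xp h) he' he1)).symm.eq, mul_inv_cancel_right]
    exact hx
  · have hxe : x ∈ centralizer ({e} : Set G) :=
      mem_centralizer_singleton_iff.2 (EE hc (xE x y) he).eq
    have hU : IsPGroup q (⁅V, zpowers x⁆ ⊓ centralizer ({e} : Set G) : Subgroup G) :=
      hP.to_le inf_le_left
    have hxU : x ∈ normalizer ((⁅V, zpowers x⁆ ⊓ centralizer ({e} : Set G) : Subgroup G) : Set G) :=
      le_normalizer_inf (zpowers_le.2 (norm_comm hxV)) ((zpowers_le.2 hxe).trans le_normalizer)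
        (mem_zpowers x)
    rw [← h.comm_comm (cop_of_ne hq hqp hU) hxU]
    exact (commutator_mono (h.comm_le (h.cen_ne_top he1) hxe hq hqp hU hxU inf_le_right)
      le_rfl).trans (hA e he he')

end CB

/-- `E = ⟨x⟩ ⊔ ⟨y⟩` elementary abelian, not cyclic. For `e ∈ E \ ⟨x⟩`, `A q e = [O_q(C(e)), x]`, normalized
by `C(E)`. (B3) `e, f ∈ E \ ⟨x⟩`, `a` a `p'`-element of `C(e)`, `b ∈ V = O_r(C(f))`: some proper `H` contains
`E`, `a`, `b x b⁻¹`: write `e = w f^j`, `w ∈ ⟨x⟩`; if `w = 1` take `C(f)`; else `H = ⟨x₁, e a⟩`, `x₁ = b x b⁻¹` (`two`);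
`e, a ∈ ⟨e a⟩`; `e (b w b⁻¹)⁻¹ = f^j u` with `u = w b w⁻¹ b⁻¹ ∈ V` commuting with `f`, so `f^j, w, x, f ∈ H`.
Hence `[a, x^i] ∈ O_q(H)`, `[b, x^k] ∈ O_r(H)` (`good`). For `q ≠ r`, `A q e` centralizes `A r f`. For
`q = r` use `trans` with `F R := IsPGroup q R ∧ E ≤ N(R)`, `Γ = C(E)`, `R₃ = O_q(H) S`, `S` Sylow in `C_H(E)`
(`R = [R, E] C_R(E)`, `[R, E] ≤ O_q(H)` by `comm_le` for `x` and `y`): all `A q e` lie in one `q`-group.
So `H₀ = N(⨆_e A q e)` (or `C(x)` if all are trivial) is proper and contains `x` and all `A r e`.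
For `Q` a `q`-group normalized by `x`, `a ∈ Q`: `trick` with `c = y` and `rep` give `H ∋ x, y` and `b ∈ O_q(H)`
with `b x b⁻¹ = a x a⁻¹`; `A₁ = [O_q(H), x] ≤ H₀` by `le_of_gen` and `coprime_le_of_forall_centralizer_le`. -/
theorem Mn.caseB (h : Mn p x) {y : G} (hy : IsConj x y) (hc : Commute x y) (hn : y ∉ zpowers x) :
    ∃ H, Cov p x H := by
  obtain ⟨H₀, hH₀, hx, hA⟩ := CB.h0 h hy hc
  refine ⟨H₀, hH₀, hx, fun q hq hqp => Kq_le fun Q hQ hxQ => comm_le_of_conj hx fun a ha => ?_⟩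
  obtain ⟨H, hH, hxH, hyH, haH⟩ := h.trick (cop_of_ne hq hqp hQ) hxQ ha hc.symm
  obtain ⟨b, hb, hb', e⟩ := h.rep (cop_of_ne hq hqp hQ) hxQ ha
  have h1 : b ∈ Cl x H := (closure_le _).2 (by
    rintro _ (rfl | rfl)
    exacts [self_mem_Cl hxH, mem_Cl (isConj_cj x a) haH]) hb'
  have h2 : b ∈ pCoreOf q H :=
    h.good H hH q hq hqp (zpowers b) (zpowers_le.2 h1) (hQ.to_le (zpowers_le.2 hb)) (mem_zpowers b)
  have h3 := CB.a1 h hy hc hn hx hq hqp (hA q hq hqp) (pCoreOf_isPGroup q H)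
    ((CB.E_le hxH hyH).trans (le_normalizer_pCoreOf q H))
    (commutator_mem_commutator h2 (mem_zpowers x))
  rw [← e]
  exact (mul_mem_cancel_right (inv_mem hx)).1 h3

end CL.F2
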