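import Cfsg.Agent.FGS.F2.Bas
import Cfsg.Agent.FGS.ClassSize

/-! The coprime case: counting the conjugates of `x`. -/

set_option autoImplicit false
set_option linter.unusedSectionVars false

namespace CL.F2
open Subgroup Cfsg CL.MSS CL.PComp CL.Comp
open scoped commutatorElement

variable {G : Type*} [Group G] [Finite G] {p : ℕ} [hp : Fact p.Prime] {x : G}

namespace Cnt

/-- The conjugates of `x` under `M`. -/
def orb (x : G) (M : Subgroup G) : Set G := {y | ∃ a ∈ M, a * x * a⁻¹ = y}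

omit hp [Finite G] in
theorem card_orb (x : G) (M : Subgroup G) :
    Nat.card (orb x M) = (centralizer ({x} : Set G)).relIndex M := by
  rw [Nat.card_coe_set_eq, ← CL.CS.ncard_conj_subgroup]
  congr 1
  ext y
  simp [orb]

omit hp [Finite G] in
theorem orb_sup {K : Subgroup G} (hn : centralizer ({x} : Set G) ≤ normalizer (K : Set G)) :
    orb x (K ⊔ centralizer ({x} : Set G)) = orb x K := by
  ext y
  refine ⟨?_, fun ⟨a, ha, e⟩ => ⟨a, mem_sup_left ha, e⟩⟩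
  rintro ⟨a, ha, rfl⟩
  obtain ⟨k, hk, c, hc, rfl⟩ := (mem_sup_of_normalizes_left hn).1 ha
  refine ⟨k, hk, ?_⟩
  rw [mul_assoc k c x, mem_centralizer_singleton_iff.1 hc]
  group

omit hp in
/-- An exponent giving the `q`-part. -/
theorem exists_exp (q : ℕ) : ∃ e : ℕ, q.Prime → ¬ q ∣ e ∧
    (∀ S : Subgroup G, IsPGroup q S → ∀ s ∈ S, s ^ e = s) ∧
    ∀ t : G, (orderOf t).Coprime q → t ^ e = 1 := by
  by_cases hq : q.Prime
  swap
  · exact ⟨0, fun h => absurd h hq⟩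
  have := Fact.mk hq
  obtain ⟨k, m, hm, hn⟩ := Nat.exists_eq_pow_mul_and_not_dvd (Nat.card_pos (α := G)).ne' q hq.ne_one
  have hc : q.Coprime m := (Nat.Prime.coprime_iff_not_dvd hq).2 hm
  obtain ⟨e, h1, h0⟩ := Nat.chineseRemainder (hc.pow_left (k + 1)) 1 0
  refine ⟨e, fun _ => ⟨fun hd => hq.one_lt.ne' ?_, fun S hS s hs => ?_, fun t ht => ?_⟩⟩
  · exact Nat.dvd_one.1 (((h1.of_dvd (dvd_pow_self q k.succ_ne_zero)).dvd_iff dvd_rfl).1 hd)
  · obtain ⟨j, hj⟩ := IsPGroup.iff_orderOf.1 hS ⟨s, hs⟩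
    rw [← Subgroup.orderOf_coe] at hj
    have h2 : orderOf s ∣ q ^ k * m := hn ▸ orderOf_dvd_natCard s
    have h3 : orderOf s ∣ q ^ k :=
      Nat.Coprime.dvd_of_dvd_mul_right (by rw [show orderOf s = q ^ j from hj]; exact hc.pow_left j) h2
    simpa using pow_eq_pow_iff_modEq.2 (h1.of_dvd (h3.trans (pow_dvd_pow q k.le_succ)))
  · have h2 : orderOf t ∣ q ^ k * m := hn ▸ orderOf_dvd_natCard t
    exact orderOf_dvd_iff_pow_eq_one.1 ((Nat.Coprime.dvd_of_dvd_mul_left (ht.pow_right k) h2).trans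
      (Nat.modEq_zero_iff_dvd.1 h0))

omit hp [Finite G] in
theorem eq_of_parts {y z : G} {e : ℕ → ℕ} (m : ℕ) (hm : 0 < m) (hz : y ^ m = z ^ m)
    (h : ∀ q : ℕ, q.Prime → q ∣ m → ¬ q ∣ e q ∧ y ^ e q = z ^ e q) : y = z := by
  induction m using Nat.strong_induction_on with
  | _ m ih =>
    by_cases h1 : m = 1
    · simpa [h1] using hz
    obtain ⟨q, hq, hd⟩ := Nat.exists_prime_and_dvd h1
    obtain ⟨h2, h3⟩ := h q hq hd
    refine ih (m.gcd (e q)) (lt_of_le_of_ne (Nat.gcd_le_left _ hm) fun h4 =>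
      h2 (hd.trans (h4 ▸ Nat.gcd_dvd_right m (e q)))) (Nat.gcd_pos_of_pos_left _ hm) ?_
      fun r hr hrd => h r hr (hrd.trans (Nat.gcd_dvd_left _ _))
    rw [← zpow_natCast, ← zpow_natCast, Nat.gcd_eq_gcd_ab, zpow_add, zpow_add, zpow_mul, zpow_mul,
      zpow_mul, zpow_mul, zpow_natCast, zpow_natCast, zpow_natCast, zpow_natCast, hz, h3]

/-- The `q`-part of `x⁻¹ d`. -/
theorem part_mem (h : Mn p x) (hS : ∀ g : G, ⁅x, g⁆ ∈ pPrimeCore p G) {q e : ℕ} (hq : q.Prime)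
    (hqp : q ≠ p) (h1 : ∀ S : Subgroup G, IsPGroup q S → ∀ s ∈ S, s ^ e = s)
    (h0 : ∀ t : G, (orderOf t).Coprime q → t ^ e = 1) {d : G} (hd : d ∈ orb x ⊤) :
    x * (x⁻¹ * d) ^ e ∈ orb x (Kq q x) := by
  have := Fact.mk hq
  obtain ⟨g, -, rfl⟩ := hd
  obtain ⟨H, -, hx, -, T, hT, hxT, a, ha, haT⟩ := h.dec (isConj_cj x g)
  have e1 : a * (g * x * g⁻¹) * a⁻¹ * x⁻¹ = 1 := by
    rw [← mem_bot, ← inf_eq_bot_of_isPGroup_of_coprime hT (pPrimeCore_coprime p)]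
    refine ⟨T.mul_mem haT (T.inv_mem hxT), ?_⟩
    have := inv_mem (hS (a * g))
    rw [commutatorElement_def] at this
    rwa [SetLike.mem_coe, show a * (g * x * g⁻¹) * a⁻¹ * x⁻¹ = (x * (a * g) * x⁻¹ * (a * g)⁻¹)⁻¹ by group]
  have hb : a⁻¹ ∈ pCoreOf q H ⊔ opOf q (fittingOf H) := by
    rw [← pCoreOf_fittingOf, pCoreOf_sup_opOf_of_nilpotent q (isNilpotent_fittingOf H)]
    exact inv_mem (opOf_le p _ ha)
  have hnO : H ≤ normalizer (opOf q (fittingOf H) : Set G) := norm_opF H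
  obtain ⟨s, hs, t, ht, hst⟩ :=
    (mem_sup_of_normalizes_right ((pCoreOf_le q H).trans hnO)).1 hb
  have hnQ := le_normalizer_pCoreOf q H hx
  have hcm : ∀ s ∈ pCoreOf q H, ∀ t ∈ opOf q (fittingOf H), Commute s t := fun s hs t ht => by
    refine FGS.commute_of_mem_nilpotent_of_coprime _ (isNilpotent_fittingOf H)
      (pCoreOf_le_fittingOf q H hs) (opOf_le q _ ht) ?_
    obtain ⟨j, hj⟩ := IsPGroup.iff_orderOf.1 (pCoreOf_isPGroup q H) ⟨s, hs⟩
    rw [← Subgroup.orderOf_coe] at hj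
    rw [show orderOf s = q ^ j from hj]
    exact (coprime_orderOf_of_mem (opOf_coprime q _) ht).symm.pow_left j
  have hu : x⁻¹ * s * x * s⁻¹ ∈ pCoreOf q H :=
    mul_mem (by simpa using (mem_normalizer_iff.1 (inv_mem hnQ) s).1 hs) (inv_mem hs)
  have hv : x⁻¹ * t * x * t⁻¹ ∈ opOf q (fittingOf H) :=
    mul_mem (by simpa using (mem_normalizer_iff.1 (inv_mem (hnO hx)) t).1 ht) (inv_mem ht)
  have e2 : x⁻¹ * (g * x * g⁻¹) = x⁻¹ * s * x * s⁻¹ * (x⁻¹ * t * x * t⁻¹) := by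
    have e3 : g * x * g⁻¹ = s * t * x * (s * t)⁻¹ := by
      rw [hst]
      conv_rhs => rw [← mul_inv_eq_one.1 e1]
      group
    rw [e3, mul_assoc _ s⁻¹, (hcm _ (inv_mem hs) _ hv).eq]
    group
  rw [e2, (hcm _ hu _ hv).mul_pow, h1 _ (pCoreOf_isPGroup q H) _ hu,
    h0 _ (coprime_orderOf_of_mem (opOf_coprime q _) hv), mul_one, ← orb_sup (cen_le_norm_Kq q x)]
  exact ⟨s, h.le_of_comm (cop_of_ne hq hqp (pCoreOf_isPGroup q H)) hnQ
    (le_sup_of_le_left (le_Kq (pCoreOf_isPGroup q H) hnQ)) (le_sup_of_le_right inf_le_right) hs,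
    by group⟩

theorem comm (h : Mn p x) (hS : ∀ g : G, ⁅x, g⁆ ∈ pPrimeCore p G)
    (hK : ∀ q : ℕ, q.Prime → q ≠ p → IsPGroup q (Kq q x)) {q r : ℕ} (hq : q.Prime) (hqp : q ≠ p)
    (hr : r.Prime) (hrp : r ≠ p) (hqr : q ≠ r) {u v : G} (hu : u ∈ orb x (Kq q x))
    (hv : v ∈ orb x (Kq r x)) : Commute (x⁻¹ * u) (x⁻¹ * v) := by
  classical
  choose e he using exists_exp (G := G)
  set I : Finset ℕ := (insert q (insert r (Nat.card G).primeFactors)).erase p with hI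
  have hIp : ∀ s ∈ I, s.Prime ∧ s ≠ p := fun s hs => by
    simp only [hI, Finset.mem_erase, Finset.mem_insert, Nat.mem_primeFactors] at hs
    refine ⟨?_, hs.1⟩
    rcases hs.2 with rfl | rfl | h1
    exacts [hq, hr, h1.1]
  let φ : orb x ⊤ → ∀ s : I, orb x (Kq s x) := fun d s =>
    ⟨x * (x⁻¹ * d) ^ e s, part_mem h hS (hIp s s.2).1 (hIp s s.2).2 (he s (hIp s s.2).1).2.1
      (he s (hIp s s.2).1).2.2 d.2⟩
  have hO : ∀ d : orb x ⊤, (x⁻¹ * d) ^ e p = 1 := by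
    rintro ⟨_, g, -, rfl⟩
    refine (he p hp.out).2.2 _ (coprime_orderOf_of_mem (pPrimeCore_coprime p) ?_)
    have := (inferInstance : (pPrimeCore p G).Normal).conj_mem _ (inv_mem (hS g)) x⁻¹
    rw [commutatorElement_def] at this
    convert this using 1
    group
  have hinj : Function.Injective φ := fun d d' hdd => by
    refine Subtype.ext (mul_left_cancel (a := x⁻¹) (eq_of_parts (e := e) (Nat.card G) Nat.card_pos
      (by rw [pow_card_eq_one', pow_card_eq_one']) fun s hs hd => ⟨(he s hs).1, ?_⟩))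
    by_cases hsp : s = p
    · rw [hsp, hO, hO]
    · exact mul_left_cancel (congrArg Subtype.val (congrFun hdd ⟨s, by
        simp [hI, hsp, hs, hd, Nat.card_pos.ne']⟩))
  have hle : Nat.card (∀ s : I, orb x (Kq s x)) ≤ Nat.card (orb x ⊤) := by
    rw [Nat.card_pi, Finset.prod_coe_sort I fun s => Nat.card (orb x (Kq s x)), card_orb,
      relIndex_top_right]
    refine Nat.le_of_dvd (Nat.pos_of_ne_zero index_ne_zero_of_finite)
      (Finset.prod_dvd_of_isRelPrime (fun s hs t ht hst => Nat.coprime_iff_isRelPrime.1 ?_)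
        fun s _ => ?_)
    · have := Fact.mk (hIp s hs).1
      have := Fact.mk (hIp t ht).1
      obtain ⟨i, hi⟩ := (hK s (hIp s hs).1 (hIp s hs).2).exists_card_eq
      obtain ⟨j, hj⟩ := (hK t (hIp t ht).1 (hIp t ht).2).exists_card_eq
      simp only [card_orb]
      refine Nat.Coprime.coprime_dvd_left (relIndex_dvd_card _ _)
        (Nat.Coprime.coprime_dvd_right (relIndex_dvd_card _ _) ?_)
      rw [hi, hj]
      exact Nat.Coprime.pow i j ((Nat.coprime_primes (hIp s hs).1 (hIp t ht).1).2 hst)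
    · rw [← orb_sup (cen_le_norm_Kq s x), card_orb]
      exact relIndex_dvd_index_of_le le_sup_right
  obtain ⟨d, hd⟩ := (hinj.bijective_of_nat_card_le hle).2 fun s =>
    ⟨if s.1 = q then u else if s.1 = r then v else x, by
      split_ifs with h1 h2
      · rwa [h1]
      · rwa [h2]
      · exact ⟨1, one_mem _, by simp⟩⟩
  have h1 := congrArg Subtype.val (congrFun hd ⟨q, by simp [hI, hqp]⟩)
  have h2 := congrArg Subtype.val (congrFun hd ⟨r, by simp [hI, hrp]⟩)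
  simp only [φ, if_true, if_neg hqr.symm] at h1 h2
  rw [← h1, ← h2, inv_mul_cancel_left, inv_mul_cancel_left]
  exact (Commute.refl _).pow_pow _ _

theorem cov_of (h : Mn p x) {H : Subgroup G} (hH : H ≠ ⊤) (hx : x ∈ H)
    (hW : ∀ r : ℕ, r.Prime → r ≠ p → ∀ v ∈ orb x (Kq r x), x⁻¹ * v ∈ H) : Cov p x H :=
  ⟨hH, hx, fun r hr hrp => Kq_le fun Q hQ hn => by
    rw [← h.comm_comm (cop_of_ne hr hrp hQ) hn]
    refine comm_le_of_conj hx fun a ha => ?_
    simpa using H.mul_mem hx (hW r hr hrp _ ⟨a, le_Kq hQ hn ha, rfl⟩)⟩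

end Cnt
open Cnt

/-- `W q = {x⁻¹ a x a⁻¹ | a ∈ Kq q x}` has `n_q = [Kq : C_{Kq}(x)]` elements, a power of `q` dividing
`[G : C(x)]` (`C(x) ≤ N(Kq)`), so `∏ n_q ≤ |x^G|`. By `dec`, a conjugate `d` is `b x b⁻¹` with
`b ∈ O_{p'}(F(H))` (`T ⊓ O_{p'}(G) = ⊥`), `b = ∏ b_q`, `b_q ∈ O_q(H) = [O_q(H), x] C(x)`, so `x⁻¹ d = ∏ w_q` with
pairwise commuting `w_q ∈ W q`. Counting, all tuples commute, so `N_q = ⟨W q⟩ ≤ Kq q x` centralizes `N_r`
(`q ≠ r`); `H = N(N_q)` for some `N_q ≠ ⊥` (or `C(x)`) contains `x` and all `W r`; finally for `Q` a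
`r`-group normalized by `x`, `a ∈ Q = [Q, x] C_Q(x)`, `a x a⁻¹ ∈ x W r` (`comm_le_of_conj`). -/
theorem Mn.count (h : Mn p x) (hS : ∀ g : G, ⁅x, g⁆ ∈ pPrimeCore p G)
    (hK : ∀ q : ℕ, q.Prime → q ≠ p → IsPGroup q (Kq q x)) : ∃ H, Cov p x H := by
  by_cases h0 : ∀ r : ℕ, r.Prime → r ≠ p → ∀ v ∈ orb x (Kq r x), x⁻¹ * v = 1
  · exact ⟨_, cov_of h (h.cen_ne_top h.ne_one) (mem_centralizer_singleton_iff.2 rfl)
      fun r hr hrp v hv => h0 r hr hrp v hv ▸ one_mem _⟩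
  push Not at h0
  obtain ⟨q, hq, hqp, u, hu, hu1⟩ := h0
  set N : Subgroup G := closure ((fun v => x⁻¹ * v) '' orb x (Kq q x)) with hN
  have hxK := cen_le_norm_Kq q x (mem_centralizer_singleton_iff.2 rfl)
  have hNK : N ≤ Kq q x := by
    refine (closure_le _).2 ?_
    rintro _ ⟨_, ⟨a, ha, rfl⟩, rfl⟩
    have := mul_mem ((mem_normalizer_iff.1 (inv_mem hxK) a).1 ha) (inv_mem ha)
    simpa [mul_assoc] using this
  refine ⟨_, cov_of h (h.loc q hq N ((hK q hq hqp).to_le hNK) fun e => hu1 ?_) ?_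
    fun r hr hrp v hv => ?_⟩
  · rw [← mem_bot, ← e]
    exact subset_closure ⟨u, hu, rfl⟩
  · refine mem_normalizer_of_cj_le ?_
    rw [hN, cj_closure]
    refine closure_mono ?_
    rintro _ ⟨_, ⟨_, ⟨a, ha, rfl⟩, rfl⟩, rfl⟩
    exact ⟨_, ⟨x * a * x⁻¹, (mem_normalizer_iff.1 hxK a).1 ha, rfl⟩, by simp only []; group⟩
  · by_cases hqr : q = r
    · subst hqr
      exact le_normalizer (subset_closure ⟨v, hv, rfl⟩)
    · refine centralizer_le_normalizer _ ?_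
      rw [hN, centralizer_closure]
      rintro _ ⟨w, hw, rfl⟩
      exact (comm h hS hK hq hqp hr hrp hqr hw hv).eq

end CL.F2
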