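import Cfsg.Agent.SIG.Bender
import Cfsg.Agent.TECH.SylIn
import Cfsg.Agent.TECH.MiscSyl
import Cfsg.Agent.SOLV.CoprimeSylow

/-! Elements lying in the second Fitting subgroup of every proper overgroup: definitions. -/

set_option autoImplicit false
set_option linter.unusedSectionVars false

namespace CL.F2
open Subgroup Cfsg CL.MSS CL.PComp CL.Comp
open scoped commutatorElement

variable {G : Type*} [Group G] {p : ℕ} {x : G}

/-- The subgroup generated by the conjugates of `x` inside `H`. -/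
def Cl (x : G) (H : Subgroup G) : Subgroup G := closure {d | IsConj x d ∧ d ∈ H}

/-- The local hypotheses on a `p`-element `x`. -/
structure Mq (p : ℕ) (x : G) : Prop where
  pg : IsPGroup p (zpowers x)
  gen : normalClosure ({x} : Set G) = ⊤
  good : ∀ H : Subgroup G, H ≠ ⊤ → ∀ q : ℕ, q.Prime → q ≠ p → ∀ Q : Subgroup G, Q ≤ Cl x H →
    IsPGroup q Q → Q ≤ pCoreOf q H
  two : ∀ d y : G, IsConj x d → closure ({d, y} : Set G) ≠ ⊤

/-- The minimal configuration with trivial Fitting subgroup. -/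
structure Mn (p : ℕ) (x : G) : Prop extends Mq p x where
  ord : orderOf x = p
  loc : ∀ q : ℕ, q.Prime → ∀ Q : Subgroup G, IsPGroup q Q → Q ≠ ⊥ → normalizer (Q : Set G) ≠ ⊤

/-- The join of the `[Q, x]` over the `q`-subgroups `Q` normalized by `x`. -/
def Kq (q : ℕ) (x : G) : Subgroup G :=
  ⨆ (Q : Subgroup G) (_ : IsPGroup q Q) (_ : x ∈ normalizer (Q : Set G)), ⁅Q, zpowers x⁆

/-- `H` is a proper subgroup containing `x` and all the `[Q, x]`. -/
def Cov (p : ℕ) (x : G) (H : Subgroup G) : Prop :=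
  H ≠ ⊤ ∧ x ∈ H ∧ ∀ q : ℕ, q.Prime → q ≠ p → Kq q x ≤ H

theorem mem_Cl {d : G} {H : Subgroup G} (h : IsConj x d) (hd : d ∈ H) : d ∈ Cl x H :=
  subset_closure ⟨h, hd⟩

theorem self_mem_Cl {H : Subgroup G} (hd : x ∈ H) : x ∈ Cl x H := mem_Cl (IsConj.refl x) hd

theorem Cl_le (x : G) (H : Subgroup G) : Cl x H ≤ H := (closure_le _).2 fun _ h => h.2

theorem Cl_conj {d : G} (h : IsConj x d) (H : Subgroup G) : Cl d H = Cl x H := by
  unfold Cl
  congr 1
  ext a
  exact ⟨fun ha => ⟨h.trans ha.1, ha.2⟩, fun ha => ⟨h.symm.trans ha.1, ha.2⟩⟩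

theorem isConj_cj (x g : G) : IsConj x (g * x * g⁻¹) := isConj_iff.2 ⟨g, rfl⟩

theorem norm_Cl (x : G) (H : Subgroup G) : H ≤ normalizer (Cl x H : Set G) :=
  le_normalizer_of_cj_le fun g hg => by
    rw [Cl, cj_closure]
    refine closure_mono ?_
    rintro _ ⟨a, ha, rfl⟩
    exact ⟨ha.1.trans (isConj_cj a g), H.mul_mem (H.mul_mem hg ha.2) (H.inv_mem hg)⟩

theorem Mq.conj (h : Mq p x) {d : G} (hd : IsConj x d) : Mq p d := by
  refine ⟨?_, ?_, fun H hH q hq hqp Q hQ => h.good H hH q hq hqp Q (Cl_conj hd H ▸ hQ),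
    fun e y he => h.two e y (hd.trans he)⟩
  · obtain ⟨g, rfl⟩ := isConj_iff.1 hd
    rw [← cj_zpowers]
    exact isPGroup_cj g h.pg
  · rw [eq_top_iff, ← h.gen]
    refine normalClosure_le_normal (Set.singleton_subset_iff.2 ?_)
    obtain ⟨g, rfl⟩ := isConj_iff.1 hd.symm
    exact (normalClosure_normal (s := {d})).conj_mem d (subset_normalClosure (Set.mem_singleton d)) g

theorem Mn.conj (h : Mn p x) {d : G} (hd : IsConj x d) : Mn p d := by
  refine ⟨h.toMq.conj hd, ?_, h.loc⟩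
  obtain ⟨g, rfl⟩ := isConj_iff.1 hd
  rw [← h.ord]
  exact (MulAut.conj g).orderOf_eq x

theorem le_Kq {q : ℕ} {Q : Subgroup G} (hQ : IsPGroup q Q) (hx : x ∈ normalizer (Q : Set G)) :
    ⁅Q, zpowers x⁆ ≤ Kq q x :=
  le_iSup_of_le Q (le_iSup_of_le hQ (le_iSup_of_le hx le_rfl))

theorem Kq_le {q : ℕ} {H : Subgroup G} (h : ∀ Q : Subgroup G, IsPGroup q Q →
    x ∈ normalizer (Q : Set G) → ⁅Q, zpowers x⁆ ≤ H) : Kq q x ≤ H :=
  iSup_le fun Q => iSup_le fun hQ => iSup_le fun hx => h Q hQ hx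

theorem cj_Kq_le (q : ℕ) (x g : G) : g •ᶜ Kq q x ≤ Kq q (g * x * g⁻¹) :=
  cj_le_iff.2 (Kq_le fun Q hQ hx => cj_le_iff.1 (by
    rw [cj_commutator, cj_zpowers]
    exact le_Kq (isPGroup_cj g hQ) (by rw [← cj_normalizer]; exact conj_mem_cj hx)))

theorem cj_Kq (q : ℕ) (x g : G) : g •ᶜ Kq q x = Kq q (g * x * g⁻¹) :=
  le_antisymm (cj_Kq_le q x g) (le_cj_iff.2 (by
    simpa [mul_assoc] using cj_Kq_le q (g * x * g⁻¹) g⁻¹))

theorem cen_le_norm_Kq (q : ℕ) (x : G) :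
    centralizer ({x} : Set G) ≤ normalizer (Kq q x : Set G) := fun g hg => by
  rw [mem_normalizer_iff_cj, cj_Kq, mem_centralizer_singleton_iff.1 hg, mul_inv_cancel_right]

/-- `[Q, x] ≤ H` can be tested on the conjugates of `x`. -/
theorem comm_le_of_conj {Q H : Subgroup G} (hx : x ∈ H) (h : ∀ a ∈ Q, a * x * a⁻¹ ∈ H) :
    ⁅Q, zpowers x⁆ ≤ H := commutator_le.2 fun a ha w hw => by
  have h1 : a •ᶜ zpowers x ≤ H := by rw [cj_zpowers]; exact zpowers_le.2 (h a ha)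
  exact H.mul_mem (h1 (conj_mem_cj hw)) (H.inv_mem (zpowers_le.2 hx hw))

theorem comm_le_Cl {Q H : Subgroup G} (hx : x ∈ H) (hQ : Q ≤ H) : ⁅Q, zpowers x⁆ ≤ Cl x H :=
  comm_le_of_conj (self_mem_Cl hx) fun a ha =>
    mem_Cl (isConj_cj x a) (H.mul_mem (H.mul_mem (hQ ha) hx) (H.inv_mem (hQ ha)))

/-- `[Q, x] ≤ O_q(H)` for every proper `H` containing `Q` and `x`. -/
theorem Mq.comm_le (h : Mq p x) {H Q : Subgroup G} (hH : H ≠ ⊤) (hx : x ∈ H) {q : ℕ}
    (hq : q.Prime) (hqp : q ≠ p) (hQ : IsPGroup q Q) (hn : x ∈ normalizer (Q : Set G))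
    (hle : Q ≤ H) : ⁅Q, zpowers x⁆ ≤ pCoreOf q H :=
  h.good H hH q hq hqp _ (comm_le_Cl hx hle)
    (hQ.to_le (commutator_le_left_of_normalizes (zpowers_le.2 hn)))

variable [Finite G] [hp : Fact p.Prime]

/-- A `p'`-group is contained in `M` as soon as its primary subgroups are. -/
theorem le_of_primary {U M : Subgroup G} (hU : (Nat.card U).Coprime p)
    (h : ∀ q : ℕ, q.Prime → q ≠ p → ∀ Q : Subgroup G, Q ≤ U → IsPGroup q Q → Q ≤ M) : U ≤ M :=
  le_of_forall_isPGroup_le fun q hq P => by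
    by_cases e : q = p
    · subst e
      rw [eq_bot_of_isPGroup_of_coprime (P.isPGroup'.map U.subtype)
        (coprime_card_of_le (map_subtype_le _) hU)]
      exact bot_le
    · exact h q hq.out e _ (map_subtype_le _) (P.isPGroup'.map _)

theorem opF_le {H M : Subgroup G} (h : ∀ q : ℕ, q.Prime → q ≠ p → pCoreOf q H ≤ M) :
    opOf p (fittingOf H) ≤ M :=
  le_of_primary (opOf_coprime p _) fun q hq hqp Q hQ hQq => by
    have := Fact.mk hq
    refine le_trans ?_ (h q hq hqp)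
    rw [← pCoreOf_fittingOf]
    exact le_pCoreOf_of_le_nilpotent (isNilpotent_fittingOf H) (hQ.trans (opOf_le p _)) hQq

theorem cop_of_ne {q : ℕ} (hq : q.Prime) (hqp : q ≠ p) {Q : Subgroup G} (hQ : IsPGroup q Q) :
    (Nat.card Q).Coprime p := by
  have := Fact.mk hq
  obtain ⟨k, hk⟩ := hQ.exists_card_eq
  rw [hk]
  exact Nat.Coprime.pow_left k ((Nat.coprime_primes hq hp.out).2 hqp)

theorem core_le_opF {q : ℕ} (hq : q.Prime) (hqp : q ≠ p) (H : Subgroup G) :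
    pCoreOf q H ≤ opOf p (fittingOf H) := by
  have := Fact.mk hq
  exact le_opOf_of_le_nilpotent (isNilpotent_fittingOf H) (pCoreOf_le_fittingOf q H)
    (cop_of_ne hq hqp (pCoreOf_isPGroup q H))

theorem norm_opF (H : Subgroup G) : H ≤ normalizer (opOf p (fittingOf H) : Set G) :=
  (le_normalizer_fittingOf H).trans (normalizer_le_normalizer_opOf p _)

theorem opF_le_self (H : Subgroup G) : opOf p (fittingOf H) ≤ H :=
  (opOf_le p _).trans (fittingOf_le H)

theorem Mq.reg (h : Mq p x) {H U : Subgroup G} (hH : H ≠ ⊤) (hU : (Nat.card U).Coprime p)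
    (hle : U ≤ Cl x H) : U ≤ opOf p (fittingOf H) :=
  le_of_primary hU fun q hq hqp Q hQ hQq =>
    (h.good H hH q hq hqp Q (hQ.trans hle) hQq).trans (core_le_opF hq hqp H)

theorem Mn.ne_one (h : Mn p x) : x ≠ 1 := fun e => hp.out.ne_one (by
  rw [← h.ord, e, orderOf_one])

theorem Mn.cop (h : Mn p x) {U : Subgroup G} (hU : (Nat.card U).Coprime p) :
    (Nat.card (zpowers x)).Coprime (Nat.card U) := by
  rw [Nat.card_zpowers, h.ord]
  exact hU.symm

/-- `Q = [Q, x] C_Q(x)`. -/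
theorem Mn.le_of_comm (h : Mn p x) {U M : Subgroup G} (hU : (Nat.card U).Coprime p)
    (hn : x ∈ normalizer (U : Set G)) (h1 : ⁅U, zpowers x⁆ ≤ M)
    (h2 : U ⊓ centralizer ({x} : Set G) ≤ M) : U ≤ M := by
  rw [← coprime_commutator_sup_centralizer (zpowers x) U (zpowers_le.2 hn) (h.cop hU)
    (Or.inl (isSolvable_of_isPGroup h.pg))]
  exact sup_le h1 (le_trans (inf_le_inf_left _ (centralizer_le (by simp))) h2)

theorem Mn.comm_comm (h : Mn p x) {U : Subgroup G} (hU : (Nat.card U).Coprime p)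
    (hn : x ∈ normalizer (U : Set G)) : ⁅⁅U, zpowers x⁆, zpowers x⁆ = ⁅U, zpowers x⁆ :=
  coprime_commutator_commutator (zpowers x) U (zpowers_le.2 hn) (h.cop hU)
    (Or.inl (isSolvable_of_isPGroup h.pg))

omit hp in
theorem norm_comm {U : Subgroup G} (hn : x ∈ normalizer (U : Set G)) :
    x ∈ normalizer ((⁅U, zpowers x⁆ : Subgroup G) : Set G) :=
  le_normalizer_commutator (zpowers_le.2 hn) le_normalizer (mem_zpowers x)

/-- If `H` is proper and contains `x` and `[Q, x]`, then `[Q, x] ≤ O_q(H)`. -/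
theorem Mn.comm_le' (h : Mn p x) {H Q : Subgroup G} (hH : H ≠ ⊤) (hx : x ∈ H) {q : ℕ}
    (hq : q.Prime) (hqp : q ≠ p) (hQ : IsPGroup q Q) (hn : x ∈ normalizer (Q : Set G))
    (hle : ⁅Q, zpowers x⁆ ≤ H) : ⁅Q, zpowers x⁆ ≤ pCoreOf q H := by
  rw [← h.comm_comm (cop_of_ne hq hqp hQ) hn]
  exact h.comm_le hH hx hq hqp (hQ.to_le (commutator_le_left_of_normalizes (zpowers_le.2 hn)))
    (norm_comm hn) hle

theorem Mn.Kq_le_core (h : Mn p x) {H : Subgroup G} (hH : H ≠ ⊤) (hx : x ∈ H) {q : ℕ}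
    (hq : q.Prime) (hqp : q ≠ p) (hle : Kq q x ≤ H) : Kq q x ≤ pCoreOf q H :=
  Kq_le fun _ hQ hn => h.comm_le' hH hx hq hqp hQ hn ((le_Kq hQ hn).trans hle)

omit hp in
theorem Mn.cen_ne_top (h : Mn p x) {e : G} (he : e ≠ 1) : centralizer ({e} : Set G) ≠ ⊤ := by
  intro ht
  obtain ⟨q, hq, hd⟩ := Nat.exists_prime_and_dvd (orderOf_eq_one_iff.not.2 he)
  have := Fact.mk hq
  have h1 : orderOf (e ^ (orderOf e / q)) = q := orderOf_pow_orderOf_div (orderOf_pos e).ne' hd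
  have h3 := pow_orderOf_eq_one (e ^ (orderOf e / q))
  rw [h1] at h3
  refine h.loc q hq (zpowers (e ^ (orderOf e / q)))
    (isPGroup_zpowers (k := 1) (by rwa [pow_one])) (fun e1 => hq.ne_one ?_)
    (eq_top_iff.2 fun g _ => mem_normalizer_iff_cj.2 ?_)
  · rw [← h1, zpowers_eq_bot.1 e1, orderOf_one]
  · have h2 : Commute g e := mem_centralizer_singleton_iff.1 (ht ▸ mem_top g)
    rw [cj_zpowers, (h2.pow_right _).eq, mul_inv_cancel_right]

end CL.F2
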