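import Cfsg.Agent.FGS.F2.Bas

/-! The final contradiction. -/

set_option autoImplicit false
set_option linter.unusedSectionVars false

namespace CL.F2
open Subgroup Cfsg CL.MSS CL.PComp CL.Comp
open scoped commutatorElement

variable {G : Type*} [Group G] [Finite G] {p : ℕ} [hp : Fact p.Prime] {x : G}

namespace Ex

omit hp in
theorem cen_zp (x : G) : centralizer (zpowers x : Set G) = centralizer ({x} : Set G) := by
  rw [zpowers_eq_closure, centralizer_closure]

/-- A `q`-group normalized and centralized suitably by an element of a normal `p`-subgroup. -/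
theorem abs {U Y : Subgroup G} [hUn : U.Normal] (hU : IsPGroup p U) (hx : x ∈ U) {q : ℕ}
    (hq : q.Prime) (hqp : q ≠ p) (hY : IsPGroup q Y) (hYx : Y ≤ centralizer ({x} : Set G))
    (hn : centralizer ({x} : Set G) ≤ normalizer (Y : Set G)) : Y ≤ pCore q G := by
  have := Fact.mk hq
  have hc := cop_of_ne (p := p) hq hqp hY
  have hUt : ∀ A : Subgroup G, A ≤ normalizer (U : Set G) := fun A => by
    rw [normalizer_eq_top]; exact le_top
  have h1 : U ≤ centralizer (Y : Set G) := by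
    refine thompson_p_times_q (zpowers x) Y U (hU.to_le (zpowers_le.2 hx)) hc hU ?_ (hUt _)
      (hUt _) ?_
    · rw [le_centralizer_iff, cen_zp]; exact hYx
    · rw [cen_zp, ← commutator_eq_bot_iff_le_centralizer, eq_bot_iff,
        ← inf_eq_bot_of_isPGroup_of_coprime hU hc]
      refine le_inf ((commutator_mono inf_le_left le_top).trans (commutator_le_left U ⊤)) ?_
      exact commutator_le_right_of_normalizes (inf_le_right.trans hn)
  have h2 : centralizer (U : Set G) ≤ centralizer ({x} : Set G) :=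
    centralizer_le (Set.singleton_subset_iff.2 hx)
  refine (le_pCoreOf (le_centralizer_iff.1 h1) (h2.trans hn) hY).trans ?_
  exact pCoreOf_le_pCore_of_isSubnormal (Normal.isSubnormal inferInstance)

end Ex

/-- In `H / O_q(H)` (or in `Cl x H ⊔ Y`): `L = Cl x H` is a `p`-group modulo `V = O_q(H) = F(H)`;
`[C_L(x), Y] ≤ Y ⊓ L ≤ V`, so `Y` centralizes `L V / V` (`centralizer_map_mk'_of_coprime`,
`thompson_p_times_q`); `D = C_H(L V / V) ⊴ H` lies in `V C_H(x) ≤ N(V Y)`, so `V Y ≤ O_q(D) ≤ V`. -/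
theorem Mn.c4 (h : Mn p x) {H Y : Subgroup G} (hH : H ≠ ⊤) (hx : x ∈ H) {q : ℕ} (hq : q.Prime)
    (hqp : q ≠ p) (hF : IsPGroup q (fittingOf H)) (hY : IsPGroup q Y) (hYH : Y ≤ H)
    (hYx : Y ≤ centralizer ({x} : Set G))
    (hn : H ⊓ centralizer ({x} : Set G) ≤ normalizer (Y : Set G)) : Y ≤ pCoreOf q H := by
  have := Fact.mk hq
  set π := QuotientGroup.mk' (pCore q H) with hπ
  have hs : Function.Surjective π := QuotientGroup.mk'_surjective _
  have hLn : ((Cl x H).subgroupOf H).Normal :=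
    (normal_subgroupOf_iff_le_normalizer (Cl_le x H)).2 (norm_Cl x H)
  have hUn : (((Cl x H).subgroupOf H).map π).Normal := hLn.map π hs
  have hFV : fittingOf H ≤ pCoreOf q H := le_pCoreOf (fittingOf_le H) (le_normalizer_fittingOf H) hF
  have hU : IsPGroup p (((Cl x H).subgroupOf H).map π) := by
    refine isPGroup_iff_forall_mem.2 ?_
    rintro _ ⟨l, hl, rfl⟩
    refine ⟨(orderOf (l : G)).factorization p, ?_⟩
    rw [← map_pow, hπ, QuotientGroup.mk'_apply, QuotientGroup.eq_one_iff, ← mem_pCoreOf]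
    refine hFV (opOf_le p _ (h.reg hH ?_ (zpowers_le.2 (pow_mem (mem_subgroupOf.1 hl) _))
      (mem_zpowers _)))
    rw [Nat.card_zpowers, orderOf_pow_of_dvd (pow_ne_zero _ hp.out.ne_zero)
      (Nat.ordProj_dvd _ _)]
    exact (Nat.coprime_ordCompl hp.out (orderOf_pos _).ne').symm
  have hxp : IsPGroup p (zpowers (⟨x, hx⟩ : H)) := by
    refine isPGroup_zpowers (k := 1) (Subtype.ext ?_)
    have := pow_orderOf_eq_one x
    rw [h.ord] at this
    simpa using this
  have hC : centralizer ({π ⟨x, hx⟩} : Set _) = (centralizer ({⟨x, hx⟩} : Set H)).map π := by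
    rw [← Ex.cen_zp, ← Ex.cen_zp, ← MonoidHom.map_zpowers, hπ]
    refine centralizer_map_mk'_of_coprime _ _ ?_ (Or.inl (isSolvable_of_isPGroup hxp))
    obtain ⟨k, hk⟩ := hxp.exists_card_eq
    rw [hk]
    exact Nat.Coprime.pow_left k (cop_of_ne hq hqp (pCore_isPGroup q)).symm
  have key := Ex.abs (x := π ⟨x, hx⟩) (Y := (Y.subgroupOf H).map π) hU
    (mem_map_of_mem π (mem_subgroupOf.2 (self_mem_Cl hx))) hq hqp
    ((isPGroup_subgroupOf hY H).map π) ?_ ?_
  · rw [pCore_quotient_pCore, le_bot_iff, Subgroup.map_eq_bot_iff, hπ, QuotientGroup.ker_mk'] at key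
    rw [← map_subgroupOf_eq_of_le hYH]
    exact map_mono key
  · rw [hC]
    refine map_mono fun y hy => mem_centralizer_singleton_iff.2 (Subtype.ext ?_)
    exact mem_centralizer_singleton_iff.1 (hYx (mem_subgroupOf.1 hy))
  · rw [hC]
    refine le_trans (map_mono fun y hy => ?_) (le_normalizer_map π)
    rw [← subgroupOf_normalizer_eq hYH]
    refine mem_subgroupOf.2 (hn ⟨y.2, mem_centralizer_singleton_iff.2 ?_⟩)
    exact congrArg Subtype.val (mem_centralizer_singleton_iff.1 hy)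

namespace Ex

/-- The join of the `K_q(x)`. -/
def KK (p : ℕ) (x : G) : Subgroup G := ⨆ (q : ℕ) (_ : q.Prime) (_ : q ≠ p), Kq q x

omit hp in
theorem le_KK {q : ℕ} (hq : q.Prime) (hqp : q ≠ p) : Kq q x ≤ KK p x :=
  le_iSup_of_le q (le_iSup_of_le hq (le_iSup_of_le hqp le_rfl))

omit hp in
theorem KK_le {H : Subgroup G} (h : ∀ q : ℕ, q.Prime → q ≠ p → Kq q x ≤ H) : KK p x ≤ H :=
  iSup_le fun q => iSup_le fun hq => iSup_le fun hqp => h q hq hqp

omit hp in
theorem cj_KK (g : G) : g •ᶜ KK p x = KK p (g * x * g⁻¹) := by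
  simp only [KK, cj_iSup, cj_Kq]

omit hp in
theorem cen_le {M : Subgroup G} (hM : normalizer (KK p x : Set G) ≤ M) :
    centralizer ({x} : Set G) ≤ M := fun g hg => hM (by
  rw [mem_normalizer_iff_cj, cj_KK, mem_centralizer_singleton_iff.1 hg, mul_inv_cancel_right])

omit hp in
theorem self_mem {M : Subgroup G} (hM : normalizer (KK p x : Set G) ≤ M) : x ∈ M :=
  cen_le hM (mem_centralizer_singleton_iff.2 rfl)

theorem inv_le (h : Mn p x) {M Q : Subgroup G} (hM : normalizer (KK p x : Set G) ≤ M) {q : ℕ}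
    (hq : q.Prime) (hqp : q ≠ p) (hQ : IsPGroup q Q) (hn : x ∈ normalizer (Q : Set G)) : Q ≤ M :=
  h.le_of_comm (cop_of_ne hq hqp hQ) hn
    (((le_Kq hQ hn).trans (le_KK hq hqp)).trans (le_normalizer.trans hM))
    (inf_le_right.trans (cen_le hM))

theorem core_le (h : Mn p x) {M H : Subgroup G} (hM : normalizer (KK p x : Set G) ≤ M)
    (hx : x ∈ H) {q : ℕ} (hq : q.Prime) (hqp : q ≠ p) : pCoreOf q H ≤ M :=
  inv_le h hM hq hqp (pCoreOf_isPGroup q H) (le_normalizer_pCoreOf q H hx)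

theorem Kq_le (h : Mn p x) {M : Subgroup G} (hM : normalizer (KK p x : Set G) ≤ M) (hT : M ≠ ⊤)
    {q : ℕ} (hq : q.Prime) (hqp : q ≠ p) : Kq q x ≤ pCoreOf q M :=
  h.Kq_le_core hT (self_mem hM) hq hqp ((le_KK hq hqp).trans (le_normalizer.trans hM))

theorem fstar_le (h : Mn p x) {d : G} (h' : Mn p d) {M M' : Subgroup G} (hT : M ≠ ⊤)
    (hT' : M' ≠ ⊤) (hM : normalizer (KK p x : Set G) ≤ M) (hM' : normalizer (KK p d : Set G) ≤ M')
    (hd : d ∈ M) (hx : x ∈ M') : fstarOf M ≤ M' := by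
  have h1 : ∀ q : ℕ, q.Prime → q ≠ p → Kq q d ≤ pCoreOf q M := fun q hq hqp =>
    h'.Kq_le_core hT hd hq hqp ((Kq_le h' hM' hT' hq hqp).trans (core_le h hM hx hq hqp))
  have h2 : ∀ A : Subgroup G, (∀ q : ℕ, q.Prime → q ≠ p → pCoreOf q M ≤ centralizer (A : Set G)) →
      A ≤ M' := fun A hA =>
    (le_centralizer_iff.1 (KK_le fun q hq hqp => (h1 q hq hqp).trans (hA q hq hqp))).trans
      ((centralizer_le_normalizer _).trans hM')
  rw [fstarOf_eq, fittingOf_eq_pCoreOf_sup p M]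
  refine sup_le (h2 _ fun q hq _ => ?_) (sup_le (h2 _ fun q hq hqp => ?_)
    (opF_le fun q hq hqp => core_le h' hM' hd hq hqp))
  · have := Fact.mk hq
    exact (pCoreOf_le_fittingOf q M).trans (le_centralizer_iff.1
      (commutator_eq_bot_iff_le_centralizer.1 (layerOf_commutator_fittingOf M)))
  · rw [← commutator_eq_bot_iff_le_centralizer, eq_bot_iff,
      ← inf_eq_bot_of_isPGroup_of_coprime (pCoreOf_isPGroup p M)
        (cop_of_ne hq hqp (pCoreOf_isPGroup q M))]
    exact le_inf (commutator_le_right_of_normalizes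
        ((pCoreOf_le q M).trans (le_normalizer_pCoreOf p M)))
      (commutator_le_left_of_normalizes ((pCoreOf_le p M).trans (le_normalizer_pCoreOf q M)))

theorem core_core (h : Mn p x) {M M' : Subgroup G} (hT' : M' ≠ ⊤)
    (hM : normalizer (KK p x : Set G) ≤ M) (hx : x ∈ M') {r : ℕ} (hr : r.Prime) (hrp : r ≠ p)
    (hle : pCoreOf r M ≤ M') (hF : IsPGroup r (fittingOf M')) : pCoreOf r M ≤ pCoreOf r M' := by
  have hn := le_normalizer_pCoreOf r M (self_mem hM)
  refine h.le_of_comm (cop_of_ne hr hrp (pCoreOf_isPGroup r M)) hn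
    (h.comm_le hT' hx hr hrp (pCoreOf_isPGroup r M) hn hle) ?_
  refine h.c4 hT' hx hr hrp hF ((pCoreOf_isPGroup r M).to_le inf_le_left) (inf_le_left.trans hle)
    inf_le_right (inf_le_right.trans (le_normalizer_inf ?_ le_normalizer))
  exact (cen_le hM).trans (le_normalizer_pCoreOf r M)

theorem norm_eq (h : Mn p x) {M A : Subgroup G} (hM : IsCoatom M) (hx : x ∈ M) (hA : A ≠ ⊥)
    (hle : A ≤ M) (hn : M ≤ normalizer (A : Set G)) : normalizer (A : Set G) = M :=
  ((hM.le_iff.1 hn).resolve_left (h.corefree hM.1 hx hA hle))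

/-- Uniqueness of the maximal overgroup. -/
theorem uniq (h : Mn p x) {d : G} (h' : Mn p d) (h0 : KK p x ≠ ⊥) {M M' : Subgroup G}
    (cM : IsCoatom M) (cM' : IsCoatom M') (hM : normalizer (KK p x : Set G) ≤ M)
    (hM' : normalizer (KK p d : Set G) ≤ M') (hd : d ∈ M) (hx : x ∈ M') : M = M' := by
  by_contra hne
  have f1 := fstar_le h h' cM.1 cM'.1 hM hM' hd hx
  have f2 := fstar_le h' h cM'.1 cM.1 hM' hM hx hd
  obtain ⟨r, hr, r1, r2⟩ := bender_primitive_pair hne
    (fun A hA hle hn => inf_le_right.trans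
      (norm_eq h cM (self_mem hM) hA (hle.trans inf_le_left) hn).le)
    (fun A hA hle hn => inf_le_right.trans (norm_eq h cM' hx hA (hle.trans inf_le_right) hn).le)
    f1 f2
  have := Fact.mk hr
  obtain ⟨q, hq, hqp, hq0⟩ : ∃ q : ℕ, q.Prime ∧ q ≠ p ∧ pCoreOf q M ≠ ⊥ := by
    by_contra hc
    push Not at hc
    exact h0 (le_bot_iff.1 (KK_le fun q hq hqp =>
      (Kq_le h hM cM.1 hq hqp).trans (hc q hq hqp).le))
  have hqr : q = r := by
    by_contra e
    have := Fact.mk hq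
    exact hq0 (eq_bot_of_isPGroup_of_coprime
      (r1.to_le ((pCoreOf_le_fittingOf q M).trans (fittingOf_le_fstarOf M)))
      (cop_of_ne hq e (pCoreOf_isPGroup q M)))
  subst hqr
  have e : pCoreOf q M = pCoreOf q M' := le_antisymm
    (core_core h cM'.1 hM hx hq hqp
      (((pCoreOf_le_fittingOf q M).trans (fittingOf_le_fstarOf M)).trans f1)
      (r2.to_le (fittingOf_le_fstarOf M')))
    (core_core h' cM.1 hM' hd hq hqp
      (((pCoreOf_le_fittingOf q M').trans (fittingOf_le_fstarOf M')).trans f2)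
      (r1.to_le (fittingOf_le_fstarOf M)))
  refine hne ?_
  rw [← norm_eq h cM (self_mem hM) hq0 (pCoreOf_le q M) (le_normalizer_pCoreOf q M), e]
  exact norm_eq h cM' hx (e ▸ hq0) (pCoreOf_le q M') (le_normalizer_pCoreOf q M')

theorem pgroup_le (h : Mn p x) (h0 : KK p x ≠ ⊥) {M T : Subgroup G} (cM : IsCoatom M)
    (hM : normalizer (KK p x : Set G) ≤ M) (hT : IsPGroup p T) (hx : x ∈ T) : T ≤ M := by
  by_contra hc
  obtain ⟨t, ht, htM⟩ := SetLike.exists_of_lt
    (lt_inf_normalizer_of_lt hT (inf_lt_left.2 hc : T ⊓ M < T))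
  have hxm : x ∈ T ⊓ M := ⟨hx, self_mem hM⟩
  have e : M = t •ᶜ M := by
    refine uniq h (h.conj (isConj_cj x t)) h0 cM (isCoatom_cj t cM) hM ?_ ?_ ?_
    · rw [← cj_KK, ← cj_normalizer]
      exact cj_mono t hM
    · exact ((mem_normalizer_iff.1 ht.2 x).1 hxm).2
    · have := (mem_normalizer_iff.1 (inv_mem ht.2) x).1 hxm
      rw [inv_inv] at this
      exact mem_cj.2 this.2
  refine htM ⟨ht.1, ?_⟩
  rw [← norm_eq h cM (self_mem hM) (fun e0 => h.ne_one (mem_bot.1 (e0 ▸ self_mem hM))) le_rfl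
    le_normalizer]
  exact mem_normalizer_iff_cj.2 e.symm

end Ex

/-- Let `K d = ⨆_{q ≠ p} Kq q d` (`cj_Kq`); from `Cov`, `Kq q d ≤ O_q(H)` (`Kq_le_core`), so `K d` is a
nilpotent `p'`-group for all conjugates `d`. `N(K d) ≥ C(d)` contains every `q`-group normalized by `d`
(`le_of_comm`; `K d ≤ N(K d)`). If `K x = ⊥`: in `dec`, `O_{p'}(F(H)) ≤ C(x)` (`opF_le`), so `⟨x, d⟩ ≤ a⁻¹ T a`
is a `p`-group, Baer–Suzuki contradicts `loc`. So `N(K x) ≤ M` coatom (`N(K x) ≠ ⊤` by `corefree`).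
LEMMA U: `M ≥ N(K x)`, `M' ≥ N(K d)` coatoms, `d ∈ M`, `x ∈ M'` give `M = M'`: `Kq q d ≤ O_q(M')` is in the
`x`-invariant `q`-group `O_q(M') ≤ M`, so `Kq q d ≤ O_q(M)`; `O_q(M) ≤ M'` (`q ≠ p`), `O_p(M)` and `E(M)` centralize
`K d`; so `F*(M) ≤ M'` and symmetrically; `bender_primitive_pair` (`corefree` + coatom) gives a prime `r ≠ p`
with both `F*` `r`-groups; `O_r(M) = [O_r(M), x] C_{O_r(M)}(x) ≤ O_r(M')` by `comm_le` and `c4`
(`Y = O_r(M) ⊓ C(x)` is normalized by `C(x) ≤ M`); symmetric, so `M = N(O_r(M)) = M'`.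
Every `p`-group `T ∋ x` lies in `M`: else `t ∈ N_T(T ⊓ M) \ M`, apply U to `M`, `t M t⁻¹`, `d = t x t⁻¹`;
`M` is self-normalizing (`corefree`). By `dec` every conjugate of `x` is in `M`, against `gen`. -/
theorem Mn.fin (h : Mn p x) (hc : ∃ H, Cov p x H) : False := by
  by_cases h0 : Ex.KK p x = ⊥
  · obtain ⟨N, hN, hNp, hxN⟩ := CL.Inv.baer_suzuki_exists_normal (p := p) (x := x) fun g => by
      obtain ⟨H, -, hx, -, T, hT, hxT, a, ha, had⟩ := h.dec (isConj_cj x g)
      have hac : a ∈ centralizer ({x} : Set G) := by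
        refine opF_le (p := p) (fun q hq hqp => ?_) ha
        have hn := le_normalizer_pCoreOf q H hx
        refine h.le_of_comm (cop_of_ne hq hqp (pCoreOf_isPGroup q H)) hn ?_ inf_le_right
        exact ((le_Kq (pCoreOf_isPGroup q H) hn).trans (Ex.le_KK hq hqp)).trans (h0.le.trans bot_le)
      refine (isPGroup_cj a⁻¹ hT).to_le ((closure_le _).2 ?_)
      rintro y (rfl | rfl)
      · refine mem_cj.2 ?_
        rwa [inv_inv, mem_centralizer_singleton_iff.1 hac, mul_inv_cancel_right]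
      · refine mem_cj.2 ?_
        rwa [inv_inv]
    exact h.loc p hp.out N hNp (fun e => h.ne_one (mem_bot.1 (e ▸ hxN))) (normalizer_eq_top N)
  obtain ⟨H₀, hH₀, hx₀, hK₀⟩ := hc
  obtain ⟨M, cM, hM⟩ := (eq_top_or_exists_le_coatom (normalizer (Ex.KK p x : Set G))).resolve_left
    (h.corefree hH₀ hx₀ h0 (Ex.KK_le hK₀))
  refine cM.1 (eq_top_iff.2 (h.gen.ge.trans ((closure_le _).2 fun d hd => ?_)))
  obtain ⟨y, hy, hyd⟩ := Group.mem_conjugatesOfSet_iff.1 hd
  rw [Set.mem_singleton_iff.1 hy] at hyd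
  obtain ⟨H, -, hx, -, T, hT, hxT, a, ha, had⟩ := h.dec hyd
  have haM : a ∈ M := opF_le (fun q hq hqp => Ex.core_le h hM hx hq hqp) ha
  have := M.mul_mem (M.mul_mem (M.inv_mem haM) (Ex.pgroup_le h h0 cM hM hT hxT had)) haM
  simpa [mul_assoc] using this

end CL.F2
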