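import Cfsg.Agent.FGS.F2.Defs

/-! The preimage of `O_p(H / F(H))`. -/

set_option autoImplicit false
set_option linter.unusedSectionVars false

namespace CL.F2
open Subgroup Cfsg CL.MSS CL.PComp CL.Comp
open scoped commutatorElement

variable {G G' : Type*} [Group G] [Group G'] [Finite G] [Finite G'] {p : ℕ} [hp : Fact p.Prime]
  {x : G}

/-- The preimage of `O_p(G / F(G))`. -/
def L0 (p : ℕ) (G : Type*) [Group G] : Subgroup G :=
  (pCore p (G ⧸ fittingSubgroup G)).comap (QuotientGroup.mk' (fittingSubgroup G))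

/-- The preimage of `O_p(H / F(H))` in the ambient group. -/
def Lp (p : ℕ) (H : Subgroup G) : Subgroup G := (L0 p H).map H.subtype

/-- `L ⊴ H` has all its `q`-subgroups (`q ≠ p`) in `O_q(H)`. -/
structure Nz (p : ℕ) (L H : Subgroup G) : Prop where
  le : L ≤ H
  nm : H ≤ normalizer (L : Set G)
  pr : ∀ q : ℕ, q.Prime → q ≠ p → ∀ Q : Subgroup G, Q ≤ L → IsPGroup q Q → Q ≤ pCoreOf q H

instance L0_normal (p : ℕ) (G : Type*) [Group G] [Finite G] : (L0 p G).Normal := by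
  have := pCore_characteristic (G := G ⧸ fittingSubgroup G) p
  exact Normal.comap inferInstance _

theorem isPGroup_of_primary {L : Subgroup G}
    (h : ∀ q : ℕ, q.Prime → q ≠ p → ∀ Q : Subgroup G, Q ≤ L → IsPGroup q Q → Q = ⊥) :
    IsPGroup p L := by
  obtain ⟨T, hT⟩ := exists_sylIn p L
  refine hT.pgroup.to_le ?_
  rw [← subgroupOf_eq_top]
  refine eq_top_of_forall_sylow_le fun q hq => ?_
  by_cases e : q = p
  · subst e
    exact ⟨hT.toSylow, le_rfl⟩
  · obtain ⟨P⟩ : Nonempty (Sylow q L) := inferInstance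
    exact ⟨P, map_le_iff_le_comap.1 ((h q hq.out e _ (map_subtype_le _) (P.isPGroup'.map _)).le.trans
      bot_le)⟩

theorem L0_pr {q : ℕ} (hq : q.Prime) (hqp : q ≠ p) {Q : Subgroup G} (hQ : Q ≤ L0 p G)
    (hQq : IsPGroup q Q) : Q ≤ pCore q G := by
  have := Fact.mk hq
  refine le_pCore_of_le_fittingSubgroup ?_ hQq
  rw [← QuotientGroup.ker_mk' (fittingSubgroup G), ← Subgroup.map_eq_bot_iff]
  exact eq_bot_of_isPGroup_of_coprime ((pCore_isPGroup p).to_le (map_le_iff_le_comap.2 hQ))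
    (cop_of_ne hq hqp (hQq.map _))

theorem le_L0 {L : Subgroup G} [hL : L.Normal]
    (h : ∀ q : ℕ, q.Prime → q ≠ p → ∀ Q : Subgroup G, Q ≤ L → IsPGroup q Q → Q ≤ pCore q G) :
    L ≤ L0 p G := by
  have := hL.map _ (QuotientGroup.mk'_surjective (fittingSubgroup G))
  refine map_le_iff_le_comap.1 (le_pCore (isPGroup_of_primary fun q hq hqp Q hQ hQq => ?_))
  have := Fact.mk hq
  obtain ⟨T, hT⟩ := exists_sylIn q L
  obtain ⟨g, -, h1⟩ := (hT.map (QuotientGroup.mk' (fittingSubgroup G))).exists_conj_le hQq hQ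
  have h2 : T.map (QuotientGroup.mk' (fittingSubgroup G)) = ⊥ := by
    rw [Subgroup.map_eq_bot_iff, QuotientGroup.ker_mk']
    exact (h q hq hqp T hT.le hT.pgroup).trans (pCore_le_fittingSubgroup q)
  rwa [h2, le_bot_iff, cj_eq_bot_iff] at h1

theorem nz_Lp (H : Subgroup G) : Nz p (Lp p H) H := by
  refine ⟨map_subtype_le _, le_normalizer_of_cj_le fun g hg => ?_, fun q hq hqp Q hQ hQq => ?_⟩
  · rw [Lp, ← subtype_map_cj (H := H) ⟨g, hg⟩, cj_eq_of_normal]
  · rw [← map_subgroupOf_eq_of_le (hQ.trans (map_subtype_le _))]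
    refine map_mono (L0_pr (p := p) hq hqp (fun a ha => ?_) (isPGroup_subgroupOf hQq H))
    obtain ⟨b, hb, e⟩ := hQ ha
    rwa [← Subtype.ext e]

theorem Nz.le_Lp {L H : Subgroup G} (h : Nz p L H) : L ≤ Lp p H := by
  have := normal_subgroupOf_of_le_normalizer h.nm
  rw [← map_subgroupOf_eq_of_le h.le]
  refine map_mono (le_L0 fun q hq hqp Q hQ hQq a ha => (mem_pCoreOf a).1 ?_)
  exact h.pr q hq hqp (Q.map H.subtype) (map_le_iff_le_comap.2 hQ) (hQq.map _) ⟨a, ha, rfl⟩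

theorem Lp_top : Lp p (⊤ : Subgroup G) = L0 p G := by
  refine le_antisymm ?_ (Nz.le_Lp ⟨le_top, fun g _ => mem_normalizer_iff_cj.2 (cj_eq_of_normal g _),
    fun q hq hqp Q hQ hQq => (pCoreOf_top (G := G) q).symm ▸ L0_pr hq hqp hQ hQq⟩)
  have : (Lp p (⊤ : Subgroup G)).Normal := normalizer_eq_top_iff.1 (eq_top_iff.2 (nz_Lp ⊤).nm)
  exact le_L0 fun q hq hqp Q hQ hQq => pCoreOf_top (G := G) q ▸ (nz_Lp ⊤).pr q hq hqp Q hQ hQq

theorem Lp_mono {K H : Subgroup G} (h : K ≤ H) : Lp p H ⊓ K ≤ Lp p K :=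
  Nz.le_Lp ⟨inf_le_right, le_normalizer_inf (h.trans (nz_Lp H).nm) le_normalizer,
    fun q hq hqp Q hQ hQq => le_trans (le_inf ((nz_Lp H).pr q hq hqp Q (hQ.trans inf_le_left) hQq)
      (hQ.trans inf_le_right)) (le_pCoreOf inf_le_right (le_normalizer_inf
        (h.trans (le_normalizer_pCoreOf q H)) le_normalizer)
        ((pCoreOf_isPGroup q H).to_le inf_le_left))⟩

theorem map_norm (f : G →* G') {H L : Subgroup G} (h : H ≤ normalizer (L : Set G)) :
    H.map f ≤ normalizer ((L.map f : Subgroup G') : Set G') := by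
  rintro _ ⟨g, hg, rfl⟩
  rw [mem_normalizer_iff_cj, ← map_cj, cj_eq_of_mem_normalizer (h hg)]

theorem Lp_map (f : G →* G') (H : Subgroup G) : (Lp p H).map f ≤ Lp p (H.map f) := by
  refine Nz.le_Lp ⟨map_mono (nz_Lp H).le, map_norm f (nz_Lp H).nm, fun q hq hqp Q hQ hQq => ?_⟩
  have := Fact.mk hq
  obtain ⟨T, hT⟩ := exists_sylIn q (Lp p H)
  obtain ⟨g, hg, h1⟩ := (hT.map f).exists_le_conj hQq hQ
  refine h1.trans (cj_le_of_mem_normalizer ((map_mono ((nz_Lp H).pr q hq hqp T hT.le hT.pgroup)).trans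
    (le_pCoreOf (map_mono (pCoreOf_le q H)) (map_norm f (le_normalizer_pCoreOf q H))
      ((pCoreOf_isPGroup q H).map f))) ?_)
  exact le_normalizer_pCoreOf q _ (map_mono (nz_Lp H).le hg)

theorem Lp_comap {f : G →* G'} (hf : Function.Injective f) (H : Subgroup G) :
    (Lp p (H.map f)).comap f ≤ Lp p H := by
  refine Nz.le_Lp ⟨(comap_mono (nz_Lp _).le).trans (comap_map_eq_self_of_injective hf H).le,
    le_normalizer_of_cj_le fun g hg => cj_le_iff_forall.2 fun a ha => ?_,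
    fun q hq hqp Q hQ hQq => ?_⟩
  · rw [mem_comap, map_mul, map_mul, map_inv]
    exact conj_mem_of_normalizes (nz_Lp _).nm ⟨g, hg, rfl⟩ ha
  · have h1 := (nz_Lp (H.map f)).pr q hq hqp (Q.map f) (map_le_iff_le_comap.2 hQ) (hQq.map f)
    rwa [pCoreOf_map_of_injective q H hf, map_le_map_iff_of_injective hf] at h1

theorem Lp_normal {N : Subgroup G} [hN : N.Normal] : Lp p N ≤ Lp p ⊤ := by
  refine Nz.le_Lp ⟨le_top, le_normalizer_of_cj_le fun g _ => ?_, fun q hq hqp Q hQ hQq =>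
    ((nz_Lp N).pr q hq hqp Q hQ hQq).trans (le_pCoreOf le_top ?_ (pCoreOf_isPGroup q N))⟩
  · have := Lp_map (p := p) (MulAut.conj g).toMonoidHom N
    rwa [cj_eq_of_normal g N] at this
  · exact (normalizer_eq_top_iff.2 hN).ge.trans (normalizer_le_normalizer_pCoreOf q N)

/-- The second Fitting subgroup. -/
def F0 (G : Type*) [Group G] : Subgroup G :=
  (fittingSubgroup (G ⧸ fittingSubgroup G)).comap (QuotientGroup.mk' (fittingSubgroup G))

theorem mem_F0_iff {x : G} : x ∈ F0 G ↔ ∀ (p : ℕ) [Fact p.Prime], ∀ a ∈ zpowers x,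
    IsPGroup p (zpowers a) → a ∈ L0 p G := by
  refine ⟨fun h p _ a ha hap => ?_, fun h => ?_⟩
  · refine map_le_iff_le_comap.1 (le_pCore_of_le_fittingSubgroup ?_ (hap.map _)) (mem_zpowers a)
    exact map_le_iff_le_comap.2 (zpowers_le.2 (zpowers_le.2 h ha))
  · refine le_of_forall_isPGroup_le (K := zpowers x) (fun p _ P a ha => ?_) (mem_zpowers x)
    exact comap_mono (pCore_le_fittingSubgroup p) (h p a (map_subtype_le _ ha)
      ((P.isPGroup'.map _).to_le (zpowers_le.2 ha)))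

end CL.F2
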