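import Cfsg.Agent.FGS.F2.Defs
import Cfsg.Agent.SOLV.MinNormal

/-! The case of a nontrivial Fitting subgroup. -/

set_option autoImplicit false
set_option linter.unusedSectionVars false

namespace CL.F2
open Subgroup Cfsg CL.MSS CL.PComp CL.Comp
open scoped commutatorElement

variable {G : Type*} [Group G] [Finite G] {p : ℕ} [hp : Fact p.Prime] {x : G}

namespace Solv

/-- A central Sylow `q`-subgroup of a group generated by a class of `p`-elements is trivial. -/
theorem central_bot {q : ℕ} [hq : Fact q.Prime] (hqp : q ≠ p) (pg : IsPGroup p (zpowers x))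
    (gen : normalClosure ({x} : Set G) = ⊤) (P : Sylow q G)
    (hP : centralizer ((P : Subgroup G) : Set G) = ⊤) : (P : Subgroup G) = ⊥ := by
  have hn : normalizer ((P : Subgroup G) : Set G) ≤ centralizer ((P : Subgroup G) : Set G) := by
    rw [hP]; exact le_top
  have hc := MonoidHom.ker_transferSylow_isComplement' P hn
  have hx : x ∈ (MonoidHom.transferSylow P hn).ker := by
    have h1 : IsPGroup p ((zpowers x).map (MonoidHom.transferSylow P hn)) := pg.map _
    have h2 : IsPGroup q (⊤ : Subgroup (P : Subgroup G)) := P.isPGroup'.to_subgroup ⊤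
    have h3 := IsPGroup.disjoint_of_ne p q hqp.symm _ _ h1 h2
    rw [disjoint_top, Subgroup.map_eq_bot_iff] at h3
    exact h3 (mem_zpowers x)
  have ht : (MonoidHom.transferSylow P hn).ker = ⊤ := by
    rw [eq_top_iff, ← gen]
    exact normalClosure_le_normal (Set.singleton_subset_iff.2 hx)
  have := hc.disjoint
  rwa [ht, top_disjoint] at this

omit [Finite G] in
/-- A subgroup normalized by `V` and `J` with `V ⊔ J = ⊤` is normal. -/
theorem normal_of_sup {V J D : Subgroup G} (h : V ⊔ J = ⊤) (h1 : V ≤ normalizer (D : Set G))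
    (h2 : J ≤ normalizer (D : Set G)) : D.Normal :=
  normalizer_eq_top_iff.1 (eq_top_iff.2 (h ▸ sup_le h1 h2))

omit [Finite G] in
theorem le_norm_of_comm {V D : Subgroup G} (hc : IsMulCommutative V) (h : D ≤ V) :
    V ≤ normalizer (D : Set G) := fun v hv => by
  rw [mem_normalizer_iff]
  intro d
  have key : ∀ d ∈ V, v * d * v⁻¹ = d := fun d hd => by
    have := congrArg Subtype.val (hc.is_comm.comm (⟨v, hv⟩ : V) ⟨d, hd⟩)
    simp only [coe_mul] at this
    rw [this, mul_inv_cancel_right]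
  constructor
  · intro hd; rwa [key d (h hd)]
  · intro hd
    have h1 : d ∈ V := by
      have := V.mul_mem (V.mul_mem (V.inv_mem hv) (h hd)) hv
      simpa [mul_assoc] using this
    rwa [key d h1] at hd

/-- The counting of complements. -/
theorem count {q r : ℕ} [hq : Fact q.Prime] [hr : Fact r.Prime] (hqr : q ≠ r) {V X : Subgroup G}
    (hV : IsMinNormal V) (hc : IsMulCommutative V) (hVr : IsPGroup r V) [hX : X.Normal]
    (hVX : V ≤ X) (hXq : ∀ y ∈ X, ∃ k : ℕ, y ^ q ^ k ∈ V)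
    (hXC : ¬ X ≤ centralizer (V : Set G)) {a : G} (ha : a ∈ X)
    (htop : V ⊔ closure ({x, a} : Set G) = ⊤) (two : ∀ y : G, closure ({x, y} : Set G) ≠ ⊤) :
    x ∈ centralizer (V : Set G) := by
  have hVn := hV.normal
  set J : G → Subgroup G := fun v => closure ({x, a * v} : Set G) with hJ
  have hxJ : ∀ v, x ∈ J v := fun v => subset_closure (by simp)
  have haJ : ∀ v, a * v ∈ J v := fun v => subset_closure (by simp)
  have hsup : ∀ v ∈ V, V ⊔ J v = ⊤ := fun v hv => by
    rw [eq_top_iff, ← htop]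
    refine sup_le le_sup_left ((closure_le _).2 ?_)
    rintro y (rfl | rfl)
    · exact mem_sup_right (hxJ v)
    · have := mul_mem (mem_sup_right (haJ v) : _ ∈ V ⊔ J v) (mem_sup_left (V.inv_mem hv))
      simpa using this
  have hinf : ∀ v ∈ V, V ⊓ J v = ⊥ := fun v hv => by
    have hn : (V ⊓ J v).Normal := normal_of_sup (hsup v hv) (le_norm_of_comm hc inf_le_left)
      (le_trans (le_inf (by rw [normalizer_eq_top]; exact le_top) le_normalizer)
        inf_normalizer_le_normalizer_inf)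
    rcases hV.eq_bot_or_eq _ hn inf_le_left with e | e
    · exact e
    · exfalso
      refine two (a * v) ?_
      have h1 : V ≤ J v := e ▸ inf_le_right
      have := hsup v hv
      rwa [sup_eq_right.2 h1] at this
  have hdec : ∀ v ∈ V, ∀ y ∈ X, ∃ u ∈ V, ∃ b ∈ J v ⊓ X, u * b = y := fun v hv y hy => by
    have h1 : y ∈ V ⊔ J v := by rw [hsup v hv]; exact mem_top y
    obtain ⟨u, hu, b, hb, e⟩ := mem_sup_of_normal_left.1 h1
    refine ⟨u, hu, b, ⟨hb, ?_⟩, e⟩
    have := X.mul_mem (X.inv_mem (hVX hu)) hy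
    rw [← e] at this
    simpa using this
  have hsyl : ∀ v ∈ V, SylIn q (J v ⊓ X) X := fun v hv => by
    refine ⟨inf_le_right, fun ⟨y, hy⟩ => ?_, fun P hP h1 h2 => le_antisymm (fun y hy => ?_) h1⟩
    · obtain ⟨k, hk⟩ := hXq y hy.2
      refine ⟨k, Subtype.ext ?_⟩
      have : y ^ q ^ k ∈ V ⊓ J v := ⟨hk, (J v).pow_mem hy.1 _⟩
      rw [hinf v hv] at this
      simpa using this
    · obtain ⟨u, hu, b, hb, e⟩ := hdec v hv y (h2 hy)
      have h3 : u ∈ P := by
        have := P.mul_mem hy (P.inv_mem (h1 hb))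
        rw [← e] at this
        simpa using this
      have h4 : u = 1 :=
        (disjoint_def.1 (IsPGroup.disjoint_of_ne q r hqr _ _ hP hVr)) h3 hu
      rw [← e, h4, one_mul]
      exact hb
  have hnJ : ∀ v, J v ≤ normalizer ((J v ⊓ X : Subgroup G) : Set G) := fun v =>
    le_trans (le_inf le_normalizer (by rw [normalizer_eq_top]; exact le_top))
      inf_normalizer_le_normalizer_inf
  set B := J 1 ⊓ X with hB
  have hBV : ∀ y ∈ V, y ∈ B → y = 1 := fun y h1 h2 => by
    have : y ∈ V ⊓ J 1 := ⟨h1, h2.1⟩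
    rwa [hinf 1 V.one_mem, mem_bot] at this
  have hN : V ⊓ normalizer (B : Set G) = ⊥ := by
    have hn : (V ⊓ normalizer (B : Set G)).Normal :=
      normal_of_sup (hsup 1 V.one_mem) (le_norm_of_comm hc inf_le_left)
        (le_trans (le_inf (by rw [normalizer_eq_top]; exact le_top) ((hnJ 1).trans le_normalizer))
          inf_normalizer_le_normalizer_inf)
    rcases hV.eq_bot_or_eq _ hn inf_le_left with e | e
    · exact e
    · exfalso
      have h1 : V ≤ normalizer (B : Set G) := e ▸ inf_le_right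
      refine hXC fun y hy => ?_
      obtain ⟨u, hu, b, hb, rfl⟩ := hdec 1 V.one_mem y hy
      refine mul_mem ((le_centralizer_iff_isMulCommutative.2 hc) hu) fun w hw => ?_
      have h2 : w * b * w⁻¹ * b⁻¹ = 1 := hBV _
        (by simpa [mul_assoc] using V.mul_mem hw (hVn.conj_mem _ (V.inv_mem hw) b))
        (B.mul_mem ((mem_normalizer_iff.1 (h1 hw) b).1 hb) (B.inv_mem hb))
      calc w * b = w * b * w⁻¹ * b⁻¹ * (b * w) := by group
        _ = b * w := by rw [h2, one_mul]
  have hsurj : ∀ v ∈ V, ∃ t ∈ V ⊓ centralizer ({x} : Set G), a⁻¹ * t * a * t⁻¹ = v := fun v hv => by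
    obtain ⟨y, hy, e⟩ := (hsyl 1 V.one_mem).exists_conj (hsyl v hv)
    obtain ⟨t, ht, b, hb, rfl⟩ := hdec 1 V.one_mem y hy
    rw [cj_mul, cj_eq_of_mem hb] at e
    refine ⟨t, ⟨ht, ?_⟩, ?_⟩
    · have h1 : t⁻¹ * x * t * x⁻¹ ∈ V ⊓ normalizer (B : Set G) := by
        refine ⟨by simpa [mul_assoc] using V.mul_mem (V.inv_mem ht) (hVn.conj_mem _ ht x), ?_⟩
        refine Subgroup.mul_mem _ (mem_normalizer_iff_cj.2 ?_) (Subgroup.inv_mem _ (hnJ 1 (hxJ 1)))
        rw [cj_mul, cj_mul, e, cj_eq_of_mem_normalizer (hnJ v (hxJ v)), ← e, inv_cj_cj]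
      rw [hN, mem_bot] at h1
      refine mem_centralizer_singleton_iff.2 ?_
      calc t * x = t * (t⁻¹ * x * t * x⁻¹) * x := by rw [h1, mul_one]
        _ = x * t := by group
    · have h1 : a * v ∈ t •ᶜ B := by rw [e]; exact ⟨haJ v, X.mul_mem ha (hVX hv)⟩
      rw [mem_cj] at h1
      have h2 : a ∈ B := ⟨by simpa using haJ 1, ha⟩
      have h3 : a⁻¹ * (t⁻¹ * (a * v) * t) = 1 := hBV _
        (by simpa [mul_assoc] using
          V.mul_mem (V.mul_mem (hVn.conj_mem _ (V.inv_mem ht) a⁻¹) hv) ht)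
        (B.mul_mem (B.inv_mem h2) h1)
      calc a⁻¹ * t * a * t⁻¹ = a⁻¹ * t * a * (a⁻¹ * (t⁻¹ * (a * v) * t)) * t⁻¹ := by
            rw [h3, mul_one]
        _ = v := by group
  have hcard : Nat.card V ≤ Nat.card (V ⊓ centralizer ({x} : Set G) : Subgroup G) := by
    refine Nat.card_le_card_of_surjective
      (fun t : (V ⊓ centralizer ({x} : Set G) : Subgroup G) => (⟨a⁻¹ * t * a * (t : G)⁻¹, ?_⟩ : V)) ?_
    · simpa using V.mul_mem (hVn.conj_mem _ t.2.1 a⁻¹) (V.inv_mem t.2.1)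
    · rintro ⟨v, hv⟩
      obtain ⟨t, ht, e⟩ := hsurj v hv
      exact ⟨⟨t, ht⟩, Subtype.ext e⟩
  have heq : V ⊓ centralizer ({x} : Set G) = V := eq_of_le_of_card_ge inf_le_left hcard
  intro w hw
  exact mem_centralizer_singleton_iff.1 (heq.ge hw).2

end Solv

/-- Let `V ≤ F(G)` be minimal normal, an abelian `r`-group, `C = C(V) ⊴ G`, `Q` Sylow `q` (`q ≠ p`),
`X = V Q ⊴ G` (by `quo`). If `q = r`, `X` is a `q`-group; if `Q ≤ C` then `Q = O_q(X)`. Otherwise some
`a ∈ Q` has `[a, x] ∉ C` (else `Q C / C` is central in `G / C = ⟨x^G⟩ C / C`; Burnside transfer kills it).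
If `H = V ⟨x, a⟩ ≠ ⊤`, `⟨[a, x]⟩ ≤ X ⊓ Cl x H` has its primary parts in `V` or in `O_q(H) ≤ C`: false.
So `J_v = ⟨x, a v⟩` (`v ∈ V`, proper by `two`) has `V J_v = G`, `J_v ⊓ V = ⊥`, `B_v = J_v ⊓ X` is Sylow `q`
in `X`, `B_v = t B_1 t⁻¹` with `t ∈ V`, `N(B_1) ⊓ V = ⊥` (it is `C_V(B_1) ⊴ G`, not `V`); so `t ∈ C_V(x)` and
`a v = t a t⁻¹`. Thus `t ↦ a⁻¹ t a t⁻¹` maps `C_V(x)` onto `V`, `x ∈ C`, `C = G`: false. -/
theorem Mq.solv (h : Mq p x) (hF : fittingSubgroup G ≠ ⊥)
    (quo : ∀ (N : Subgroup G) [N.Normal], N ≠ ⊥ → ∀ q : ℕ, q.Prime → q ≠ p → ∀ Q : Subgroup G,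
      IsPGroup q Q → Q.map (QuotientGroup.mk' N) ≤ pCore q (G ⧸ N))
    {q : ℕ} (hq : q.Prime) (hqp : q ≠ p) {Q : Subgroup G} (hQ : IsPGroup q Q) : Q ≤ pCore q G := by
  have := Fact.mk hq
  obtain ⟨V, hV, hVF⟩ := exists_isMinNormal_le (fittingSubgroup G) hF
  have hVn := hV.normal
  have hs : Group.IsSolvable V := by
    have := isNilpotent_of_le (isNilpotent_fittingSubgroup G) hVF
    infer_instance
  have hc := hV.isMulCommutative_of_isSolvable hs
  obtain ⟨r, hr, hVr⟩ := hV.exists_isPGroup_of_isSolvable hs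
  have := Fact.mk hr
  obtain ⟨S, hS, hQS⟩ := exists_sylIn_ge hQ (le_top : Q ≤ ⊤)
  refine hQS.trans ?_
  set X := (pCore q (G ⧸ V)).comap (QuotientGroup.mk' V) with hX
  have hcq : IsPGroup q (pCore q (G ⧸ V)) := isPGroup_pCore q _
  have hSX : S ≤ X := map_le_iff_le_comap.1 (quo V hV.ne_bot q hq hqp S hS.pgroup)
  have hVX : V ≤ X := fun v hv => by
    rw [hX, mem_comap, QuotientGroup.mk'_apply, (QuotientGroup.eq_one_iff v).2 hv]
    exact one_mem _
  have hXq : ∀ y ∈ X, ∃ k : ℕ, y ^ q ^ k ∈ V := fun y hy => by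
    obtain ⟨k, hk⟩ := hcq ⟨_, hy⟩
    refine ⟨k, (QuotientGroup.eq_one_iff _).1 ?_⟩
    simpa using congrArg Subtype.val hk
  by_cases hqr : q = r
  · subst hqr
    refine hSX.trans (CL.le_pCore fun ⟨y, hy⟩ => ?_)
    obtain ⟨k, hk⟩ := hXq y hy
    obtain ⟨m, hm⟩ := hVr ⟨_, hk⟩
    refine ⟨k + m, Subtype.ext ?_⟩
    simpa [pow_add, pow_mul] using congrArg Subtype.val hm
  have hXS : X ≤ V ⊔ S := by
    have h1 : pCore q (G ⧸ V) ≤ S.map (QuotientGroup.mk' V) :=
      (hS.map (QuotientGroup.mk' V)).le_of_normalized hcq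
        (by rw [map_top_of_surjective _ (QuotientGroup.mk'_surjective V)]; exact le_top)
        (by rw [normalizer_eq_top]; exact le_top)
    have h2 := comap_mono (f := QuotientGroup.mk' V) h1
    rwa [comap_map_eq, QuotientGroup.ker_mk', sup_comm] at h2
  set C := centralizer (V : Set G) with hC
  have hVC : V ≤ C := le_centralizer_iff_isMulCommutative.2 hc
  by_cases hSC : S ≤ C
  · have h1 : X ≤ normalizer (S : Set G) := hXS.trans (sup_le
      ((le_centralizer_iff.1 hSC).trans (centralizer_le_normalizer _)) le_normalizer)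
    have h2 : S.Normal := ⟨fun s hs g => hS.le_of_normalizes (isPGroup_cj g hS.pgroup) le_top
      (le_trans (fun _ ⟨y, hy, e⟩ => e ▸ (inferInstance : X.Normal).conj_mem y (hSX hy) g) h1)
      (conj_mem_cj hs)⟩
    exact CL.le_pCore hS.pgroup
  exfalso
  have hxC : x ∉ C := fun hx => hSC (le_top.trans (by
    rw [← h.gen]
    exact normalClosure_le_normal (Set.singleton_subset_iff.2 hx)))
  obtain ⟨a, ha, hac⟩ : ∃ a ∈ S, a * x * a⁻¹ * x⁻¹ ∉ C := by
    by_contra hno
    push Not at hno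
    have hsj := QuotientGroup.mk'_surjective C
    have h1 : SylIn q (S.map (QuotientGroup.mk' C)) ⊤ := by
      have := hS.map (QuotientGroup.mk' C)
      rwa [map_top_of_surjective _ hsj] at this
    have h2 : S.map (QuotientGroup.mk' C) = X.map (QuotientGroup.mk' C) := by
      refine le_antisymm (map_mono hSX) ((map_mono hXS).trans ?_)
      rw [Subgroup.map_sup, (Subgroup.map_eq_bot_iff V).2 (by rw [QuotientGroup.ker_mk']; exact hVC), bot_sup_eq]
    have h3 : (S.map (QuotientGroup.mk' C)).Normal := h2 ▸ Normal.map inferInstance _ hsj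
    have gen : normalClosure ({QuotientGroup.mk' C x} : Set (G ⧸ C)) = ⊤ := by
      rw [← Set.image_singleton, ← map_normalClosure _ _ hsj, h.gen, map_top_of_surjective _ hsj]
    have h4 := Solv.central_bot (p := p) hqp (by rw [← MonoidHom.map_zpowers]; exact h.pg.map _) gen
      h1.toSylowTop (by
        rw [SylIn.coe_toSylowTop, eq_top_iff, ← gen]
        refine normalClosure_le_normal (Set.singleton_subset_iff.2 ?_)
        rintro _ ⟨a, ha, rfl⟩
        have := (QuotientGroup.eq_one_iff _).2 (hno a ha)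
        rw [← mul_inv_eq_one]
        simpa [mul_assoc] using this)
    rw [SylIn.coe_toSylowTop, Subgroup.map_eq_bot_iff, QuotientGroup.ker_mk'] at h4
    exact hSC h4
  refine hxC (Solv.count hqr hV hc hVr hVX hXq (fun h' => hSC (hSX.trans h')) (hSX ha) ?_
    fun y => h.two x y (IsConj.refl x))
  by_contra hH
  set H := V ⊔ closure ({x, a} : Set G) with hHd
  have hxH : x ∈ H := mem_sup_right (subset_closure (by simp))
  have haH : a ∈ H := mem_sup_right (subset_closure (by simp))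
  have hcX : a * x * a⁻¹ * x⁻¹ ∈ X := by
    simpa [mul_assoc] using X.mul_mem (hSX ha)
      ((inferInstance : X.Normal).conj_mem _ (X.inv_mem (hSX ha)) x)
  have hcl : a * x * a⁻¹ * x⁻¹ ∈ Cl x H :=
    mul_mem (mem_Cl (isConj_cj x a) (H.mul_mem (H.mul_mem haH hxH) (H.inv_mem haH)))
      (inv_mem (self_mem_Cl hxH))
  refine hac (zpowers_le.1 (le_of_forall_isPGroup_le fun s hs P => ?_))
  have hP := P.isPGroup'.map (zpowers (a * x * a⁻¹ * x⁻¹)).subtype
  have hle := map_subtype_le (P : Subgroup (zpowers (a * x * a⁻¹ * x⁻¹)))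
  by_cases e : s = q
  · subst e
    refine (h.good H hH s hq hqp _ (hle.trans (zpowers_le.2 hcl)) hP).trans fun y hy w hw => ?_
    have h1 : w * y * w⁻¹ * y⁻¹ = 1 :=
      (disjoint_def.1 (IsPGroup.disjoint_of_ne s r hqr _ _ (pCoreOf_isPGroup s H) hVr))
        (mul_mem ((mem_normalizer_iff.1 (le_normalizer_pCoreOf s H (mem_sup_left hw)) y).1 hy)
          (inv_mem hy))
        (by simpa [mul_assoc] using V.mul_mem hw (hVn.conj_mem _ (V.inv_mem hw) y))
    calc w * y = w * y * w⁻¹ * y⁻¹ * (y * w) := by group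
      _ = y * w := by rw [h1, one_mul]
  · refine le_trans ?_ hVC
    have h1 := IsPGroup.disjoint_of_ne s q e _ _ (hP.map (QuotientGroup.mk' V)) hcq
    rw [disjoint_iff, inf_eq_left.2 (map_le_iff_le_comap.2 (hle.trans (zpowers_le.2 hcX))),
      Subgroup.map_eq_bot_iff, QuotientGroup.ker_mk'] at h1
    exact h1

end CL.F2
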