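import Cfsg.Agent.FGS.F2.Lp
import Cfsg.Agent.FGS.F2.End
import Cfsg.Agent.FGS.F2.CaseB
import Cfsg.Agent.FGS.F2.CaseA1
import Cfsg.Agent.FGS.F2.CaseA2
import Cfsg.Agent.FGS.F2.Count
import Cfsg.Agent.FGS.F2.Solv

/-! Flavell's characterization of the second Fitting subgroup. -/

set_option autoImplicit false
set_option linter.unusedSectionVars false

namespace CL.F2
open Subgroup Cfsg CL.MSS CL.PComp CL.Comp
open scoped commutatorElement

universe u

section
variable {G : Type*} [Group G] [Finite G] {p : ℕ} [hp : Fact p.Prime] {x : G}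

theorem Mn.false (h : Mn p x) : False := by
  by_cases hw : ∀ d : G, IsConj x d → Commute x d → d ∈ zpowers x
  · obtain ⟨h1, h2⟩ := h.caseA1 hw
    exact h.fin (h.count h2 fun q hq hqp => h.caseA2 h1 h2 hq hqp)
  · push Not at hw
    obtain ⟨d, h1, h2, h3⟩ := hw
    exact h.fin (h.caseB h1 h2 h3)

/-- The hypothesis on the two-generated subgroups. -/
def Hyp (p : ℕ) (x : G) : Prop :=
  IsPGroup p (zpowers x) ∧ ∀ y : G, x ∈ Lp p (closure ({x, y} : Set G))

theorem Hyp.map {G' : Type*} [Group G'] [Finite G'] (h : Hyp p x) {f : G →* G'}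
    (hf : Function.Surjective f) : Hyp p (f x) := by
  refine ⟨by rw [← MonoidHom.map_zpowers]; exact h.1.map f, fun y => ?_⟩
  obtain ⟨y, rfl⟩ := hf y
  have := Lp_map f _ ⟨x, h.2 y, rfl⟩
  rwa [MonoidHom.map_closure, Set.image_pair] at this

theorem Hyp.conj (h : Hyp p x) {d : G} (hd : IsConj x d) : Hyp p d := by
  obtain ⟨g, rfl⟩ := isConj_iff.1 hd
  exact h.map (f := (MulAut.conj g).toMonoidHom) (MulAut.conj g).surjective

theorem Hyp.sub (h : Hyp p x) {Y : Subgroup G} (hx : x ∈ Y) : Hyp p (⟨x, hx⟩ : Y) := by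
  refine ⟨isPGroup_of_map_subtype (by rw [MonoidHom.map_zpowers]; exact h.1), fun y => ?_⟩
  refine Lp_comap Y.subtype_injective _ ?_
  rw [MonoidHom.map_closure, Set.image_pair]
  exact h.2 y

theorem Hyp.pow (h : Hyp p x) {a : G} (ha : a ∈ zpowers x) : Hyp p a :=
  ⟨h.1.to_le (zpowers_le.2 ha), fun y => Lp_mono (H := closure ({x, y} : Set G))
    ((closure_le _).2 (by
      rintro _ (rfl | rfl)
      · exact zpowers_le.2 (subset_closure (by simp)) ha
      · exact subset_closure (by simp)))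
    ⟨zpowers_le.2 (h.2 y) ha, subset_closure (by simp)⟩⟩

theorem Hyp.mq (h : Hyp p x) (ih : ∀ H : Subgroup G, H ≠ ⊤ → ∀ d ∈ H, Hyp p d → d ∈ Lp p H)
    (hx : x ∉ Lp p (⊤ : Subgroup G)) : Mq p x := by
  refine ⟨h.1, ?_, fun H hH q hq hqp Q hQ => (nz_Lp H).pr q hq hqp Q (hQ.trans ((closure_le _).2
    fun d hd => ih H hH d hd.2 (h.conj hd.1))), fun d y hd e => hx ?_⟩
  · by_contra hn
    exact hx (Lp_normal (ih _ hn x (subset_normalClosure (Set.mem_singleton x)) h))
  · obtain ⟨g, rfl⟩ := isConj_iff.1 hd.symm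
    exact conj_mem_of_normalizes (nz_Lp ⊤).nm (mem_top g) (e ▸ (h.conj hd).2 y)

end

theorem main {p : ℕ} [hp : Fact p.Prime] (n : ℕ) : ∀ (G : Type u) [Group G] [Finite G],
    Nat.card G = n → ∀ x : G, Hyp p x → x ∈ Lp p (⊤ : Subgroup G) := by
  induction n using Nat.strong_induction_on with
  | _ n ih =>
  intro G _ _ hG x h
  subst hG
  have hsub : ∀ H : Subgroup G, H ≠ ⊤ → ∀ d ∈ H, Hyp p d → d ∈ Lp p H := fun H hH d hd h1 => by
    have h2 := ih _ (XC.card_lt_of_ne_top hH) H rfl _ (h1.sub hd)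
    rw [Lp_top] at h2
    exact ⟨_, h2, rfl⟩
  by_contra hx
  by_cases hF : fittingSubgroup G = ⊥
  · have h0 : ∀ q : ℕ, q.Prime → pCore q G = ⊥ := fittingSubgroup_eq_bot_iff.1 hF
    have hx1 : x ≠ 1 := fun e => hx (e ▸ one_mem _)
    have hd : p ∣ orderOf x := by
      rw [← Nat.card_zpowers]
      exact dvd_card_of_isPGroup_le h.1 (zpowers_ne_bot.2 hx1) le_rfl
    have h1 : orderOf (x ^ (orderOf x / p)) = p := orderOf_pow_orderOf_div (orderOf_pos x).ne' hd
    refine Mn.false (p := p) (x := x ^ (orderOf x / p)) ⟨(h.pow (pow_mem (mem_zpowers x) _)).mq hsub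
      fun h2 => hp.out.ne_one ?_, h1, fun q hq Q hQ hQ1 e => hQ1 ?_⟩
    · rw [Lp_top] at h2
      have h3 := le_pCore (isPGroup_of_primary (p := p) (L := L0 p G) fun q hq hqp Q hQ hQq =>
        eq_bot_iff.2 ((L0_pr hq hqp hQ hQq).trans (h0 q hq).le)) h2
      rw [h0 p hp.out, mem_bot] at h3
      rw [← h1, h3, orderOf_one]
    · have := normalizer_eq_top_iff.1 e
      exact eq_bot_iff.2 ((le_pCore hQ).trans (h0 q hq).le)
  · have hm := h.mq hsub hx
    refine hx ?_
    rw [Lp_top]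
    refine le_L0 (L := ⊤) (fun q hq hqp Q _ hQ => hm.solv hF (fun N _ hN r hr hrp R hR => ?_)
      hq hqp hQ) (mem_top x)
    have h2 := ih _ (by
      rw [card_eq_card_quotient_mul_card_subgroup N]
      exact lt_mul_of_one_lt_right Nat.card_pos ((one_lt_card_iff_ne_bot _).2 hN)) (G ⧸ N) rfl _
      (h.map (QuotientGroup.mk'_surjective N))
    rw [Lp_top] at h2
    have h3 : (⊤ : Subgroup G) ≤ (L0 p (G ⧸ N)).comap (QuotientGroup.mk' N) := by
      rw [← hm.gen]
      exact normalClosure_le_normal (Set.singleton_subset_iff.2 h2)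
    exact L0_pr hr hrp (map_le_iff_le_comap.2 (le_top.trans h3)) (hR.map _)

theorem flavell {G : Type u} [Group G] [Finite G] (x : G) :
    x ∈ F0 G ↔ ∀ y : G, ∀ hx : x ∈ closure ({x, y} : Set G),
      (⟨x, hx⟩ : closure ({x, y} : Set G)) ∈ F0 (closure ({x, y} : Set G)) := by
  refine ⟨fun h y hx => mem_F0_iff.2 fun p _ a ha hap => ?_, fun h => mem_F0_iff.2
    fun p _ a ha hap => ?_⟩
  · have h1 : (a : G) ∈ zpowers x := by
      obtain ⟨i, rfl⟩ := ha
      exact ⟨i, rfl⟩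
    have h2 := mem_F0_iff.1 h p a h1 (by
      have := hap.map (closure ({x, y} : Set G)).subtype
      rwa [MonoidHom.map_zpowers] at this)
    rw [← Lp_top] at h2
    obtain ⟨b, hb, e⟩ := Lp_mono (K := closure ({x, y} : Set G)) le_top ⟨h2, a.2⟩
    rwa [← Subtype.ext e]
  · rw [← Lp_top]
    refine main _ G rfl a ⟨hap, fun y => Lp_mono (H := closure ({x, y} : Set G))
      ((closure_le _).2 (by
        rintro _ (rfl | rfl)
        · exact zpowers_le.2 (subset_closure (by simp)) ha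
        · exact subset_closure (by simp))) ⟨?_, subset_closure (by simp)⟩⟩
    have hx : x ∈ closure ({x, y} : Set G) := subset_closure (by simp)
    obtain ⟨i, rfl⟩ := ha
    refine ⟨⟨x, hx⟩ ^ i, mem_F0_iff.1 (h y hx) p _ ⟨i, rfl⟩ (isPGroup_of_map_subtype ?_), rfl⟩
    rw [MonoidHom.map_zpowers]
    exact hap

end CL.F2
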